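import Mathlib
import Cfsg.Agent.Lib.Helper52.ReflChar2
import Cfsg.Agent.S0750

/-!
Characteristic two, finite field, quadratic form `Q` with non-degenerate polar form `B`:
two isometries of `Q` are conjugate in the isometry group of `Q` as soon as they are conjugate
under the group of all invertible matrices preserving `B` (the symplectic group of `B`).

Proof: if `g` preserves `B` then `Q ∘ g = Q + B(r, ·)²` for a unique vector `r`; if `g t g⁻¹ = s`
with `t`, `s` isometries then `t r = r`; the Arf-type lemma gives `a` with `Q(r) a² + a = 1`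
and `g ∘ (x ↦ x + a B(x, r) r)` is an isometry of `Q` conjugating `t` to `s`.
-/

set_option autoImplicit false

namespace Cfsg.Agent.Lib.Helper44

open Module QuadraticMap Cfsg.Agent.Lib.Helper52

theorem mul_self_inj_two {F : Type*} [Field F] (h2 : (2 : F) = 0) {b b' : F}
    (h : b * b = b' * b') : b = b' := by
  have h1 : (b - b') * (b - b') = 0 := by
    linear_combination h + (b' * b' - b * b') * h2
  exact sub_eq_zero.mp (mul_self_eq_zero.mp h1)

section Abstract

variable {F V : Type*} [Field F] [AddCommGroup V] [Module F V]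

/-- The symplectic transvection `x ↦ x + a B(x, r) r`. -/
noncomputable def strans (Q : QuadraticForm F V) (a : F) (r : V) : V →ₗ[F] V :=
  LinearMap.id + a • ((polarBilin Q).flip r).smulRight r

theorem strans_apply (Q : QuadraticForm F V) (a : F) (r x : V) :
    strans Q a r x = x + (a * polar Q x r) • r := by
  simp [strans, LinearMap.smulRight_apply, smul_smul]

theorem polar_strans (h2 : (2 : F) = 0) (Q : QuadraticForm F V) (a : F) (r x : V) :
    polar Q (strans Q a r x) r = polar Q x r := by
  rw [strans_apply, polar_add_left, polar_smul_left, polar_self_two h2, smul_zero, add_zero]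

theorem strans_strans (h2 : (2 : F) = 0) (Q : QuadraticForm F V) (a : F) (r x : V) :
    strans Q a r (strans Q a r x) = x := by
  rw [strans_apply, polar_strans h2, strans_apply, add_assoc, ← add_smul]
  have : a * polar Q x r + a * polar Q x r = 0 := by linear_combination (a * polar Q x r) * h2
  rw [this, zero_smul, add_zero]

theorem Q_strans (Q : QuadraticForm F V) (a : F) (r x : V)
    (ha : Q r * (a * a) + a = 1) :
    Q (strans Q a r x) = Q x + polar Q x r * polar Q x r := by
  rw [strans_apply, QuadraticMap.map_add (⇑Q), QuadraticMap.map_smul, polar_smul_right]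
  simp only [smul_eq_mul]
  linear_combination (polar Q x r * polar Q x r) * ha

end Abstract

section Mat

variable {ι : Type} [Fintype ι] [DecidableEq ι] {F : Type*} [Field F] [Fintype F]
variable (Q : QuadraticForm F (ι → F))

theorem isConj_iff_polar_conj (h2 : (2 : F) = 0) (hQ : (polarBilin Q).Nondegenerate)
    (t s : ↥(Cfsg.isometryGroup F ⇑Q)) :
    IsConj t s ↔ ∃ g ∈ Cfsg.preserving (Units.coeHom (Matrix ι ι F))
        (fun u v => Q (u + v) - Q u - Q v),
      g * (t : Matrix.GeneralLinearGroup ι F) * g⁻¹ = (s : Matrix.GeneralLinearGroup ι F) := by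
  constructor
  · intro hc
    obtain ⟨c, hc⟩ := isConj_iff.mp hc
    refine ⟨(c : Matrix.GeneralLinearGroup ι F), ?_, ?_⟩
    · intro u v
      show Q (((c : Matrix.GeneralLinearGroup ι F) : Matrix ι ι F).mulVec u +
          ((c : Matrix.GeneralLinearGroup ι F) : Matrix ι ι F).mulVec v) -
          Q (((c : Matrix.GeneralLinearGroup ι F) : Matrix ι ι F).mulVec u) -
          Q (((c : Matrix.GeneralLinearGroup ι F) : Matrix ι ι F).mulVec v) = Q (u + v) - Q u - Q v
      rw [← Matrix.mulVec_add, Cfsg.Agent.Lib.Helper51.isometry_apply,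
        Cfsg.Agent.Lib.Helper51.isometry_apply, Cfsg.Agent.Lib.Helper51.isometry_apply]
    · exact congrArg Subtype.val hc
  · rintro ⟨g, hg, hconj⟩
    have : CharP F 2 := (CharP.charP_iff_prime_eq_zero Nat.prime_two).2 (by exact_mod_cast h2)
    set G : (ι → F) →ₗ[F] (ι → F) := Matrix.toLin' (g : Matrix ι ι F) with hG
    set Tt : (ι → F) →ₗ[F] (ι → F) :=
      Matrix.toLin' ((t : Matrix.GeneralLinearGroup ι F) : Matrix ι ι F) with hTt
    set Ts : (ι → F) →ₗ[F] (ι → F) :=
      Matrix.toLin' ((s : Matrix.GeneralLinearGroup ι F) : Matrix ι ι F) with hTs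
    have hpol : ∀ u v, polar Q (G u) (G v) = polar Q u v := by
      intro u v
      have := hg u v
      simp only [hG, Matrix.toLin'_apply]
      exact this
    have hTtQ : ∀ x, Q (Tt x) = Q x := fun x => by
      rw [hTt, Matrix.toLin'_apply]; exact Cfsg.Agent.Lib.Helper51.isometry_apply Q t x
    have hTsQ : ∀ x, Q (Ts x) = Q x := fun x => by
      rw [hTs, Matrix.toLin'_apply]; exact Cfsg.Agent.Lib.Helper51.isometry_apply Q s x
    have hGbij : Function.Bijective G := by
      rw [Function.bijective_iff_has_inverse]
      refine ⟨Matrix.toLin' ((g⁻¹ : Matrix.GeneralLinearGroup ι F) : Matrix ι ι F), ?_, ?_⟩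
      · intro x
        rw [hG, ← Matrix.toLin'_mul_apply, ← Units.val_mul, inv_mul_cancel, Units.val_one,
          Matrix.toLin'_one, LinearMap.id_apply]
      · intro x
        rw [hG, ← Matrix.toLin'_mul_apply, ← Units.val_mul, mul_inv_cancel, Units.val_one,
          Matrix.toLin'_one, LinearMap.id_apply]
    have hts : ∀ x, G (Tt x) = Ts (G x) := by
      intro x
      have h1 : g * (t : Matrix.GeneralLinearGroup ι F) = (s : Matrix.GeneralLinearGroup ι F) * g :=
        mul_inv_eq_iff_eq_mul.mp hconj
      have h3 := congrArg (fun u : Matrix.GeneralLinearGroup ι F => Matrix.toLin' (u : Matrix ι ι F) x) h1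
      simp only [Units.val_mul, Matrix.toLin'_mul_apply] at h3
      exact h3
    -- the defect of `g`
    let D : (ι → F) → F := fun x => Q (G x) - Q x
    have hD_add : ∀ x y, D (x + y) = D x + D y := by
      intro x y
      show Q (G (x + y)) - Q (x + y) = (Q (G x) - Q x) + (Q (G y) - Q y)
      rw [map_add, QuadraticMap.map_add (⇑Q), QuadraticMap.map_add (⇑Q) x y, hpol]
      ring
    have hD_smul : ∀ (c : F) x, D (c • x) = c * c * D x := by
      intro c x
      show Q (G (c • x)) - Q (c • x) = c * c * (Q (G x) - Q x)
      rw [map_smul, QuadraticMap.map_smul, QuadraticMap.map_smul]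
      simp only [smul_eq_mul]
      ring
    have hsq : ∀ a : F, ∃ b, b * b = a := by
      intro a
      obtain ⟨b, hb⟩ := FiniteField.isSquare_of_char_two (ringChar.eq F 2) a
      exact ⟨b, hb.symm⟩
    choose sq hsq' using hsq
    let φ : (ι → F) →ₗ[F] F :=
      { toFun := fun x => sq (D x)
        map_add' := by
          intro x y
          apply mul_self_inj_two h2
          rw [hsq', hD_add]
          linear_combination (-(sq (D x) * sq (D y))) * h2 - hsq' (D x) - hsq' (D y)
        map_smul' := by
          intro c x
          apply mul_self_inj_two h2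
          rw [hsq', hD_smul, RingHom.id_apply, smul_eq_mul]
          linear_combination (-(c * c)) * hsq' (D x) }
    let r : ι → F := (LinearMap.BilinForm.toDual (polarBilin Q) hQ).symm φ
    have hr : ∀ x, polar Q r x = sq (D x) := by
      intro x
      have h1 : LinearMap.BilinForm.toDual (polarBilin Q) hQ r = φ :=
        LinearEquiv.apply_symm_apply _ _
      have h3 := congrArg (fun f : Module.Dual F (ι → F) => f x) h1
      simp only [LinearMap.BilinForm.toDual_def] at h3
      exact h3
    have hQG : ∀ x, Q (G x) = Q x + polar Q r x * polar Q r x := by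
      intro x
      rw [hr, hsq']
      show Q (G x) = Q x + (Q (G x) - Q x)
      ring
    -- `t` fixes `r`
    have hrt : ∀ x, polar Q r (Tt x) = polar Q r x := by
      intro x
      apply mul_self_inj_two h2
      have h1 := hQG (Tt x)
      rw [hts, hTsQ, hQG x, hTtQ] at h1
      linear_combination -h1
    have htr : Tt r = r := by
      have h1 : ∀ y, polar Q (Tt r - r) y = 0 := by
        intro y
        have hy : Tt (Matrix.toLin'
            (((t⁻¹ : ↥(Cfsg.isometryGroup F ⇑Q)) : Matrix.GeneralLinearGroup ι F) : Matrix ι ι F) y)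
            = y := by
          rw [hTt, Matrix.toLin'_apply, Matrix.toLin'_apply]
          exact Cfsg.Agent.Lib.Helper51.coe_inv_mulVec Q t y
        rw [polar_sub_left]
        nth_rewrite 1 [← hy]
        rw [polar_of_isometry Q hTtQ]
        nth_rewrite 2 [← hy]
        rw [hrt, sub_self]
      have h3 := hQ.1 (Tt r - r) h1
      exact sub_eq_zero.mp h3
    -- the Arf-type parameter
    obtain ⟨a, ha⟩ : ∃ a : F, Q r * (a * a) + a = 1 := by
      by_cases hQr : Q r = 0
      · exact ⟨1, by rw [hQr]; ring⟩
      · exact Cfsg.Agent.S0750.inv_lemma Q hQ (fun a => by linear_combination a * h2) r hQr 1 G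
          hGbij (fun y => by rw [hQG, one_mul]; rfl)
    -- the correcting transvection
    set T : (ι → F) →ₗ[F] (ι → F) := strans Q a r with hT
    have hTT : T ∘ₗ T = LinearMap.id := by
      apply LinearMap.ext
      intro x
      rw [LinearMap.comp_apply, hT, strans_strans h2, LinearMap.id_apply]
    have hM : LinearMap.toMatrix' T * LinearMap.toMatrix' T = 1 := by
      rw [← LinearMap.toMatrix'_comp, hTT, LinearMap.toMatrix'_id]
    let τ : Matrix.GeneralLinearGroup ι F := ⟨LinearMap.toMatrix' T, LinearMap.toMatrix' T, hM, hM⟩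
    have hτ : Matrix.toLin' (τ : Matrix ι ι F) = T := Matrix.toLin'_toMatrix' T
    have hTcomm : ∀ x, T (Tt x) = Tt (T x) := by
      intro x
      rw [hT, strans_apply, strans_apply, map_add, map_smul, htr]
      congr 3
      nth_rewrite 1 [← htr]
      rw [polar_of_isometry Q hTtQ]
    have hcomm : τ * (t : Matrix.GeneralLinearGroup ι F) = (t : Matrix.GeneralLinearGroup ι F) * τ := by
      apply Units.ext
      apply Matrix.toLin'.injective
      apply LinearMap.ext
      intro x
      rw [Units.val_mul, Units.val_mul, Matrix.toLin'_mul_apply, Matrix.toLin'_mul_apply, hτ]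
      exact hTcomm x
    have hmem : g * τ ∈ Cfsg.isometryGroup F ⇑Q := by
      rw [Cfsg.Agent.Lib.Helper51.mem_isometryGroup_iff]
      intro x
      have e : ((g * τ : Matrix.GeneralLinearGroup ι F) : Matrix ι ι F).mulVec x = G (T x) := by
        rw [Units.val_mul, ← Matrix.toLin'_apply, Matrix.toLin'_mul_apply, hτ]
      rw [e, hQG, hT, Q_strans Q a r x ha, polar_comm Q r, polar_strans h2]
      linear_combination (polar Q x r * polar Q x r) * h2
    rw [isConj_iff]
    refine ⟨⟨g * τ, hmem⟩, Subtype.ext ?_⟩
    show g * τ * (t : Matrix.GeneralLinearGroup ι F) * (g * τ)⁻¹ = (s : Matrix.GeneralLinearGroup ι F)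
    rw [← hconj, mul_assoc g, hcomm]
    group

end Mat

end Cfsg.Agent.Lib.Helper44
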