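import Mathlib
import Cfsg.Agent.Lib.Helper44.OrthConj
import Cfsg.Agent.Lib.Helper44.Dickson
import Cfsg.Agent.S2166

/-!
# Involutions of orthogonal groups in characteristic two: classification (helper44)

`Q` a quadratic form on `ι → F` over a finite field of characteristic two with non-degenerate
polar form.  For involutions `t`, `s` of the isometry group:

* `isConj_inv_iff`: `t`, `s` are conjugate iff `t - 1`, `s - 1` have the same rank and
  `IsAltInv t ↔ IsAltInv s`, where `IsAltInv t` means `Q (v + t v) = 0` for all `v`;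
* `two_mul_rank_le`: `2 * rank (t - 1) ≤ card ι`;
* `even_rank_of_alt`: `IsAltInv t → Even (rank (t - 1))`;
* `range_singular_of_alt`: `IsAltInv t → Q = 0` on the range of `t - 1`;
* `mkInv`: the isometry attached to a linear involution preserving `Q`.
-/

set_option autoImplicit false

namespace Cfsg.Agent.Lib.Helper44

open Module QuadraticMap Cfsg.Agent.Lib.Helper18

section InvOrth

variable {ι : Type} [Fintype ι] [DecidableEq ι] {F : Type*} [Field F]
variable (Q : QuadraticForm F (ι → F))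

/-- the matrix of an isometry -/
abbrev imat (t : ↥(Cfsg.isometryGroup F ⇑Q)) : Matrix ι ι F :=
  ((t : Matrix.GeneralLinearGroup ι F) : Matrix ι ι F)

/-- `Q (v + t v) = 0` for all `v` -/
def IsAltInv (t : ↥(Cfsg.isometryGroup F ⇑Q)) : Prop :=
  ∀ v : ι → F, Q (v + (imat Q t).mulVec v) = 0

theorem imat_mul_self (t : ↥(Cfsg.isometryGroup F ⇑Q)) (ht : t * t = 1) :
    imat Q t * imat Q t = 1 := by
  have := congrArg (imat Q) ht
  simpa [imat] using this

omit [Fintype ι] [DecidableEq ι] in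
theorem polarBilin_isAlt (h2 : (2 : F) = 0) : (polarBilin Q).IsAlt := by
  intro x
  rw [polarBilin_apply_apply, QuadraticMap.polar_self, two_smul]
  linear_combination (Q x) * h2

theorem inv_data (h2 : (2 : F) = 0) (t : ↥(Cfsg.isometryGroup F ⇑Q)) (ht : t * t = 1) :
    (∀ x, (imat Q t - 1).mulVecLin ((imat Q t - 1).mulVecLin x) = 0) ∧
    (∀ x y, polarBilin Q ((imat Q t - 1).mulVecLin x) y
      = polarBilin Q x ((imat Q t - 1).mulVecLin y)) ∧
    (∀ x, polarBilin Q x ((imat Q t - 1).mulVecLin x) = Q (x + (imat Q t).mulVec x)) ∧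
    (∀ x, Q ((imat Q t - 1).mulVecLin x) = Q (x + (imat Q t).mulVec x)) := by
  have hAA := imat_mul_self Q t ht
  have hAAv : ∀ y : ι → F, (imat Q t).mulVec ((imat Q t).mulVec y) = y := by
    intro y
    rw [Matrix.mulVec_mulVec, hAA, Matrix.one_mulVec]
  have hNv : ∀ x : ι → F, (imat Q t - 1).mulVecLin x = (imat Q t).mulVec x - x := by
    intro x
    rw [Matrix.mulVecLin_apply, Matrix.sub_mulVec, Matrix.one_mulVec]
  have hpol : ∀ x y : ι → F, polar Q ((imat Q t).mulVec x) ((imat Q t).mulVec y) = polar Q x y :=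
    fun x y => Cfsg.Agent.Lib.Helper51.isometry_polar Q t x y
  have hiso : ∀ x : ι → F, Q ((imat Q t).mulVec x) = Q x :=
    fun x => Cfsg.Agent.Lib.Helper51.isometry_apply Q t x
  have hvv : ∀ y : ι → F, y + y = 0 := by
    intro y
    rw [← two_smul F y, h2, zero_smul]
  refine ⟨?_, ?_, ?_, ?_⟩
  · intro x
    rw [hNv, hNv, Matrix.mulVec_sub, hAAv]
    have : x - (imat Q t).mulVec x - ((imat Q t).mulVec x - x)
        = (x + x) - ((imat Q t).mulVec x + (imat Q t).mulVec x) := by abel
    rw [this, hvv, hvv, sub_zero]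
  · intro x y
    rw [hNv, hNv, polarBilin_apply_apply, polarBilin_apply_apply, polar_sub_left, polar_sub_right]
    congr 1
    rw [← hpol ((imat Q t).mulVec x) y, hAAv]
  · intro x
    rw [hNv, polarBilin_apply_apply, polar_sub_right, QuadraticMap.polar_self, two_smul]
    unfold QuadraticMap.polar
    rw [hiso]
    linear_combination (-2 * Q x) * h2
  · intro x
    rw [hNv]
    have : (imat Q t).mulVec x - x = x + (imat Q t).mulVec x - (x + x) := by abel
    rw [this, hvv, sub_zero]

theorem two_mul_rank_le (h2 : (2 : F) = 0) (t : ↥(Cfsg.isometryGroup F ⇑Q)) (ht : t * t = 1) :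
    2 * (imat Q t - 1).rank ≤ Fintype.card ι := by
  obtain ⟨hN2, -, -, -⟩ := inv_data Q h2 t ht
  have hle : LinearMap.range (imat Q t - 1).mulVecLin ≤ LinearMap.ker (imat Q t - 1).mulVecLin := by
    rintro _ ⟨x, rfl⟩
    exact hN2 x
  have h1 := Submodule.finrank_mono hle
  have h3 := LinearMap.finrank_range_add_finrank_ker (imat Q t - 1).mulVecLin
  rw [Module.finrank_fintype_fun_eq_card] at h3
  have h4 : (imat Q t - 1).rank = finrank F (LinearMap.range (imat Q t - 1).mulVecLin) := rfl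
  omega

theorem even_rank_of_alt (h2 : (2 : F) = 0) (hQ : (polarBilin Q).Nondegenerate)
    (t : ↥(Cfsg.isometryGroup F ⇑Q)) (ht : t * t = 1) (halt : IsAltInv Q t) :
    Even (imat Q t - 1).rank := by
  have : CharP F 2 := (CharP.charP_iff_prime_eq_zero Nat.prime_two).2 (by exact_mod_cast h2)
  obtain ⟨-, hadj, hform, -⟩ := inv_data Q h2 t ht
  exact Cfsg.Agent.S2166.even_of_alt (polarBilin_isAlt Q h2) hQ _ hadj
    (fun x => by rw [hform]; exact halt x)

theorem range_singular_of_alt (h2 : (2 : F) = 0) (t : ↥(Cfsg.isometryGroup F ⇑Q))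
    (ht : t * t = 1) (halt : IsAltInv Q t) :
    ∀ u ∈ LinearMap.range (imat Q t - 1).mulVecLin, Q u = 0 := by
  obtain ⟨-, -, -, hq⟩ := inv_data Q h2 t ht
  rintro _ ⟨x, rfl⟩
  rw [hq]
  exact halt x

theorem rank_of_isConj_iso (t s : ↥(Cfsg.isometryGroup F ⇑Q)) (h : IsConj t s) :
    (imat Q t - 1).rank = (imat Q s - 1).rank := by
  obtain ⟨c, hc⟩ := isConj_iff.1 h
  have h1 : c * t = s * c := by rw [← hc]; group
  have h2 : imat Q c * imat Q t = imat Q s * imat Q c := congrArg (imat Q) h1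
  have hdet : IsUnit (imat Q c).det := Matrix.isUnits_det_units _
  have h3 : imat Q c * (imat Q t - 1) = (imat Q s - 1) * imat Q c := by
    rw [mul_sub, sub_mul, h2, mul_one, one_mul]
  rw [← Matrix.rank_mul_eq_right_of_isUnit_det _ _ hdet, h3,
    Matrix.rank_mul_eq_left_of_isUnit_det _ _ hdet]

theorem alt_of_isConj (t s : ↥(Cfsg.isometryGroup F ⇑Q)) (h : IsConj t s)
    (halt : IsAltInv Q t) : IsAltInv Q s := by
  obtain ⟨c, hc⟩ := isConj_iff.1 h
  have h1 : c * t = s * c := by rw [← hc]; group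
  have h2 : imat Q c * imat Q t = imat Q s * imat Q c := congrArg (imat Q) h1
  intro v
  have hv : v = (imat Q c).mulVec ((imat Q c⁻¹).mulVec v) :=
    (Cfsg.Agent.Lib.Helper51.coe_inv_mulVec Q c v).symm
  have e : v + (imat Q s).mulVec v
      = (imat Q c).mulVec ((imat Q c⁻¹).mulVec v + (imat Q t).mulVec ((imat Q c⁻¹).mulVec v)) := by
    rw [Matrix.mulVec_add, ← hv, Matrix.mulVec_mulVec, h2, ← Matrix.mulVec_mulVec, ← hv]
  rw [e, Cfsg.Agent.Lib.Helper51.isometry_apply]
  exact halt _

theorem isConj_inv_iff [Fintype F] (h2 : (2 : F) = 0) (hQ : (polarBilin Q).Nondegenerate)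
    (t s : ↥(Cfsg.isometryGroup F ⇑Q)) (ht : t * t = 1) (hs : s * s = 1) :
    IsConj t s ↔ ((imat Q t - 1).rank = (imat Q s - 1).rank ∧ (IsAltInv Q t ↔ IsAltInv Q s)) := by
  constructor
  · intro h
    exact ⟨rank_of_isConj_iso Q t s h, alt_of_isConj Q t s h, alt_of_isConj Q s t h.symm⟩
  · rintro ⟨hrank, htype⟩
    have : CharP F 2 := (CharP.charP_iff_prime_eq_zero Nat.prime_two).2 (by exact_mod_cast h2)
    have hsq : ∀ x : F, IsSquare x := fun x =>
      FiniteField.isSquare_of_char_two (ringChar.eq F 2) x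
    obtain ⟨hN₁, hadj₁, hform₁, -⟩ := inv_data Q h2 t ht
    obtain ⟨hN₂, hadj₂, hform₂, -⟩ := inv_data Q h2 s hs
    have htype' : (∀ x, polarBilin Q x ((imat Q t - 1).mulVecLin x) = 0) ↔
        (∀ x, polarBilin Q x ((imat Q s - 1).mulVecLin x) = 0) := by
      constructor
      · intro h x
        rw [hform₂]
        exact htype.1 (fun v => by rw [← hform₁]; exact h v) x
      · intro h x
        rw [hform₁]
        exact htype.2 (fun v => by rw [← hform₂]; exact h v) x
    obtain ⟨g, hg, hgN⟩ := Cfsg.Agent.S2166.conj_abstract hsq (polarBilin_isAlt Q h2) hQ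
      (imat Q t - 1).mulVecLin (imat Q s - 1).mulVecLin hN₁ hN₂ hadj₁ hadj₂ hrank htype'
    obtain ⟨g', -, hg'1, hg'2⟩ := TP_inv (polarBilin_isAlt Q h2) hg
    have hiso := TP_isometry (polarBilin_isAlt Q h2) hg
    have hgA : ∀ x, g ((imat Q t).mulVec x) = (imat Q s).mulVec (g x) := by
      intro x
      have h := hgN x
      rw [Matrix.mulVecLin_apply, Matrix.mulVecLin_apply, Matrix.sub_mulVec, Matrix.sub_mulVec,
        Matrix.one_mulVec, Matrix.one_mulVec, map_sub] at h
      exact sub_left_injective h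
    have hmat : LinearMap.toMatrix' g * imat Q t = imat Q s * LinearMap.toMatrix' g := by
      apply Matrix.toLin'.injective
      rw [Matrix.toLin'_mul, Matrix.toLin'_mul, Matrix.toLin'_toMatrix']
      apply LinearMap.ext
      intro x
      rw [LinearMap.comp_apply, LinearMap.comp_apply, Matrix.toLin'_apply, Matrix.toLin'_apply]
      exact hgA x
    let G : Matrix.GeneralLinearGroup ι F :=
      ⟨LinearMap.toMatrix' g, LinearMap.toMatrix' g',
        by rw [← LinearMap.toMatrix'_mul, hg'2, LinearMap.toMatrix'_one],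
        by rw [← LinearMap.toMatrix'_mul, hg'1, LinearMap.toMatrix'_one]⟩
    rw [isConj_iff_polar_conj Q h2 hQ]
    refine ⟨G, ?_, ?_⟩
    · intro u v
      show Q ((LinearMap.toMatrix' g).mulVec u + (LinearMap.toMatrix' g).mulVec v)
        - Q ((LinearMap.toMatrix' g).mulVec u) - Q ((LinearMap.toMatrix' g).mulVec v)
        = Q (u + v) - Q u - Q v
      rw [LinearMap.toMatrix'_mulVec, LinearMap.toMatrix'_mulVec]
      have := hiso u v
      rw [polarBilin_apply_apply, polarBilin_apply_apply] at this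
      exact this
    · rw [mul_inv_eq_iff_eq_mul]
      apply Units.ext
      exact hmat

end InvOrth

section MkInv

variable {ι : Type} [Fintype ι] [DecidableEq ι] {F : Type*} [Field F]
variable (Q : QuadraticForm F (ι → F))

/-- the isometry attached to a linear involution preserving `Q` -/
noncomputable def mkInv (T : (ι → F) →ₗ[F] (ι → F)) (hQ : ∀ x, Q (T x) = Q x)
    (hT : ∀ x, T (T x) = x) : ↥(Cfsg.isometryGroup F ⇑Q) :=
  ⟨⟨LinearMap.toMatrix' T, LinearMap.toMatrix' T,
    by
      rw [← LinearMap.toMatrix'_mul]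
      have : T * T = 1 := LinearMap.ext hT
      rw [this, LinearMap.toMatrix'_one],
    by
      rw [← LinearMap.toMatrix'_mul]
      have : T * T = 1 := LinearMap.ext hT
      rw [this, LinearMap.toMatrix'_one]⟩,
    by
      rw [Cfsg.Agent.Lib.Helper51.mem_isometryGroup_iff]
      intro x
      show Q ((LinearMap.toMatrix' T).mulVec x) = Q x
      rw [LinearMap.toMatrix'_mulVec, hQ]⟩

theorem imat_mkInv (T : (ι → F) →ₗ[F] (ι → F)) (hQ : ∀ x, Q (T x) = Q x)
    (hT : ∀ x, T (T x) = x) : imat Q (mkInv Q T hQ hT) = LinearMap.toMatrix' T := rfl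

theorem mkInv_mul_self (T : (ι → F) →ₗ[F] (ι → F)) (hQ : ∀ x, Q (T x) = Q x)
    (hT : ∀ x, T (T x) = x) : mkInv Q T hQ hT * mkInv Q T hQ hT = 1 := by
  apply Cfsg.Agent.Lib.Helper51.isometry_ext
  show LinearMap.toMatrix' T * LinearMap.toMatrix' T = 1
  rw [← LinearMap.toMatrix'_mul]
  have : T * T = 1 := LinearMap.ext hT
  rw [this, LinearMap.toMatrix'_one]

theorem rank_mkInv (T : (ι → F) →ₗ[F] (ι → F)) (hQ : ∀ x, Q (T x) = Q x)
    (hT : ∀ x, T (T x) = x) :
    (imat Q (mkInv Q T hQ hT) - 1).rank = finrank F (LinearMap.range (T - LinearMap.id)) := by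
  rw [imat_mkInv]
  have e : (LinearMap.toMatrix' T - 1).mulVecLin = T - LinearMap.id := by
    apply LinearMap.ext
    intro x
    rw [Matrix.mulVecLin_apply, Matrix.sub_mulVec, Matrix.one_mulVec, LinearMap.toMatrix'_mulVec,
      LinearMap.sub_apply, LinearMap.id_apply]
  rw [Matrix.rank, e]

theorem isAltInv_mkInv (T : (ι → F) →ₗ[F] (ι → F)) (hQ : ∀ x, Q (T x) = Q x)
    (hT : ∀ x, T (T x) = x) :
    IsAltInv Q (mkInv Q T hQ hT) ↔ ∀ v, Q (v + T v) = 0 := by
  unfold IsAltInv
  rw [imat_mkInv]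
  simp only [LinearMap.toMatrix'_mulVec]

end MkInv

end Cfsg.Agent.Lib.Helper44
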