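import Mathlib
import Cfsg.Agent.Lib.Helper51.Gram

/-!
Non-degeneracy of the polar forms of the standard plus-type and (characteristic two) minus-type
quadratic forms.
-/

set_option autoImplicit false

namespace Cfsg.Agent.Lib.Helper44

open Cfsg.Agent.Lib.Helper51

theorem nondeg_QPlus (m : ℕ) (F : Type*) [Field F] :
    (QuadraticMap.polarBilin (QPlus m F)).Nondegenerate := by
  apply nondegenerate_of_det_gram_ne_zero
  rw [det_gram_QPlus]
  exact pow_ne_zero _ (neg_ne_zero.mpr one_ne_zero)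

theorem aniso_ne_zero {F : Type*} [Field F] [Fintype F] [CharP F 2] (c d : F)
    (hcd : ∀ z₁ z₂ : F, z₁ ^ 2 + c * z₁ * z₂ + d * z₂ ^ 2 = 0 → z₁ = 0 ∧ z₂ = 0) : c ≠ 0 := by
  rintro rfl
  obtain ⟨s, hs⟩ := FiniteField.isSquare_of_char_two (ringChar.eq F 2) d
  have h2 : (2 : F) = 0 := CharTwo.two_eq_zero
  have := (hcd s 1 (by rw [hs]; linear_combination (s * s) * h2)).2
  exact one_ne_zero this

theorem nondeg_QMinus_two {F : Type*} [Field F] [Fintype F] [CharP F 2] (k : ℕ) (c d : F)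
    (hcd : ∀ z₁ z₂ : F, z₁ ^ 2 + c * z₁ * z₂ + d * z₂ ^ 2 = 0 → z₁ = 0 ∧ z₂ = 0) :
    (QuadraticMap.polarBilin (QMinus k F c d)).Nondegenerate := by
  apply nondegenerate_of_det_gram_ne_zero
  rw [det_gram_QMinus]
  have h2 : (2 : F) = 0 := CharTwo.two_eq_zero
  have hc := aniso_ne_zero c d hcd
  have e : (4 * d - c ^ 2 : F) = -(c ^ 2) := by linear_combination (2 * d) * h2
  rw [e]
  exact mul_ne_zero (pow_ne_zero _ (neg_ne_zero.mpr one_ne_zero))
    (neg_ne_zero.mpr (pow_ne_zero _ hc))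

end Cfsg.Agent.Lib.Helper44
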