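import Mathlib
import Cfsg.Agent.Lib.Helper44.InvOrth
import Cfsg.Agent.Lib.Helper44.InvReps
import Cfsg.Agent.Lib.Helper44.OrthForms
import Cfsg.Agent.Lib.Helper44.OrthSplit

/-!
# Involutions of `O^±_{2m}(q)`, `q` even: representatives and counting (helper44)

* `hypSys_QPlus`, `hypSys_QMinus`: the standard hyperbolic pairs of the standard forms;
* `plus_na`, `plus_al`, `minus_na`, `minus_al`: involutions of every rank and type;
* `card_classes_of_reps`: counting conjugacy classes with a property from a family of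
  representatives;
* `card_inv_classes`: the number of classes of involutions of an orthogonal group in
  characteristic two from existence and bounds.
-/

set_option autoImplicit false

namespace Cfsg.Agent.Lib.Helper44

open Module QuadraticMap Cfsg.Agent.Lib.Helper51

section Forms

variable {F : Type*} [Field F]

theorem hypSys_QPlus (m : ℕ) :
    IsHypSys (QPlus m F) (fun i : Fin m => (Pi.single (Sum.inl i) 1 : Fin m ⊕ Fin m → F))
      (fun i : Fin m => (Pi.single (Sum.inr i) 1 : Fin m ⊕ Fin m → F)) := by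
  refine ⟨?_, ?_, ?_, ?_, ?_⟩
  · intro i
    rw [QPlus_apply]
    simp [Pi.single_apply]
  · intro i
    rw [QPlus_apply]
    simp [Pi.single_apply]
  · intro i j
    rw [polar_QPlus]
    simp [Pi.single_apply]
  · intro i j
    rw [polar_QPlus]
    simp [Pi.single_apply]
  · intro i j
    rw [polar_QPlus]
    simp [Pi.single_apply, eq_comm]

theorem hypSys_QMinus (k : ℕ) (a b : F) :
    IsHypSys (QMinus k F a b)
      (fun i : Fin k => (Pi.single (Sum.inl (Sum.inl i)) 1 : (Fin k ⊕ Fin k) ⊕ Fin 2 → F))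
      (fun i : Fin k => (Pi.single (Sum.inl (Sum.inr i)) 1 : (Fin k ⊕ Fin k) ⊕ Fin 2 → F)) := by
  refine ⟨?_, ?_, ?_, ?_, ?_⟩
  · intro i
    rw [QMinus_apply]
    simp [Pi.single_apply]
  · intro i
    rw [QMinus_apply]
    simp [Pi.single_apply]
  · intro i j
    rw [polar_QMinus]
    simp [Pi.single_apply]
  · intro i j
    rw [polar_QMinus]
    simp [Pi.single_apply]
  · intro i j
    rw [polar_QMinus]
    simp [Pi.single_apply, eq_comm]

end Forms

section Exist

variable {ι : Type} [Fintype ι] [DecidableEq ι] {F : Type*} [Field F]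
variable (Q : QuadraticForm F (ι → F))

theorem exists_inv_of_map (T : (ι → F) →ₗ[F] (ι → F)) (hQ : ∀ x, Q (T x) = Q x)
    (hT : ∀ x, T (T x) = x) :
    ∃ t : ↥(Cfsg.isometryGroup F ⇑Q), t * t = 1 ∧
      (imat Q t - 1).rank = finrank F (LinearMap.range (T - LinearMap.id)) ∧
      (IsAltInv Q t ↔ ∀ v, Q (v + T v) = 0) :=
  ⟨mkInv Q T hQ hT, mkInv_mul_self Q T hQ hT, rank_mkInv Q T hQ hT, isAltInv_mkInv Q T hQ hT⟩

end Exist

section PlusMinus

variable {F : Type*} [Field F]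

theorem plus_na (h2 : (2 : F) = 0) (m l : ℕ) (hl : l ≤ m) (hl0 : 0 < l) :
    ∃ t : ↥(Cfsg.isometryGroup F ⇑(QPlus m F)), t * t = 1 ∧
      (imat (QPlus m F) t - 1).rank = l ∧ ¬ IsAltInv (QPlus m F) t := by
  obtain ⟨T, h1, h3, h4, h5⟩ := hyp_na (QPlus m F) h2 (hypSys_QPlus m) l hl
  obtain ⟨t, ht1, ht2, ht3⟩ := exists_inv_of_map (QPlus m F) T h1 h3
  refine ⟨t, ht1, by rw [ht2, h4], ?_⟩
  rw [ht3]
  obtain ⟨v, hv⟩ := h5 hl0
  exact fun h => hv (h v)

theorem plus_al (h2 : (2 : F) = 0) (m j : ℕ) (hj : 2 * j ≤ m) :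
    ∃ t : ↥(Cfsg.isometryGroup F ⇑(QPlus m F)), t * t = 1 ∧
      (imat (QPlus m F) t - 1).rank = 2 * j ∧ IsAltInv (QPlus m F) t := by
  obtain ⟨T, h1, h3, h4, h5⟩ := hyp_al (QPlus m F) h2 (hypSys_QPlus m) j hj
  obtain ⟨t, ht1, ht2, ht3⟩ := exists_inv_of_map (QPlus m F) T h1 h3
  exact ⟨t, ht1, by rw [ht2, h4], ht3.2 h5⟩

theorem minus_na (h2 : (2 : F) = 0) (k l : ℕ) (a b : F) (ha : a ≠ 0) (hl : l ≤ k + 1)
    (hl0 : 0 < l) :
    ∃ t : ↥(Cfsg.isometryGroup F ⇑(QMinus k F a b)), t * t = 1 ∧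
      (imat (QMinus k F a b) t - 1).rank = l ∧ ¬ IsAltInv (QMinus k F a b) t := by
  by_cases hlk : l ≤ k
  · obtain ⟨T, h1, h3, h4, h5⟩ := hyp_na (QMinus k F a b) h2 (hypSys_QMinus k a b) l hlk
    obtain ⟨t, ht1, ht2, ht3⟩ := exists_inv_of_map (QMinus k F a b) T h1 h3
    refine ⟨t, ht1, by rw [ht2, h4], ?_⟩
    rw [ht3]
    obtain ⟨v, hv⟩ := h5 hl0
    exact fun h => hv (h v)
  · have hlk' : l = k + 1 := by omega
    subst hlk'
    obtain ⟨T, h1, h3, h4, v, hv⟩ := hyp_na_Z (QMinus k F a b) h2 (hypSys_QMinus k a b)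
      (Pi.single (Sum.inr 0) 1) (a⁻¹ • Pi.single (Sum.inr 1) 1)
      (by rw [QMinus_apply]; simp [Pi.single_apply])
      (by intro i; rw [polar_QMinus]; simp [Pi.single_apply])
      (by intro i; rw [polar_QMinus]; simp [Pi.single_apply])
      (by
        rw [polar_smul_left, polar_QMinus]
        simp [Pi.single_apply, ha])
      (by intro i; rw [polar_smul_left, polar_QMinus]; simp [Pi.single_apply])
      (by intro i; rw [polar_smul_left, polar_QMinus]; simp [Pi.single_apply])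
    obtain ⟨t, ht1, ht2, ht3⟩ := exists_inv_of_map (QMinus k F a b) T h1 h3
    refine ⟨t, ht1, by rw [ht2, h4], ?_⟩
    rw [ht3]
    exact fun h => hv (h v)

theorem minus_al (h2 : (2 : F) = 0) (k j : ℕ) (a b : F) (hj : 2 * j ≤ k) :
    ∃ t : ↥(Cfsg.isometryGroup F ⇑(QMinus k F a b)), t * t = 1 ∧
      (imat (QMinus k F a b) t - 1).rank = 2 * j ∧ IsAltInv (QMinus k F a b) t := by
  obtain ⟨T, h1, h3, h4, h5⟩ := hyp_al (QMinus k F a b) h2 (hypSys_QMinus k a b) j hj
  obtain ⟨t, ht1, ht2, ht3⟩ := exists_inv_of_map (QMinus k F a b) T h1 h3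
  exact ⟨t, ht1, by rw [ht2, h4], ht3.2 h5⟩

theorem minus_alt_rank_le (h2 : (2 : F) = 0) (k : ℕ) (a b : F)
    (hab : ∀ z₁ z₂ : F, z₁ ^ 2 + a * z₁ * z₂ + b * z₂ ^ 2 = 0 → z₁ = 0 ∧ z₂ = 0)
    (t : ↥(Cfsg.isometryGroup F ⇑(QMinus k F a b))) (ht : t * t = 1)
    (halt : IsAltInv (QMinus k F a b) t) : (imat (QMinus k F a b) t - 1).rank ≤ k := by
  have hs := range_singular_of_alt (QMinus k F a b) h2 t ht halt
  exact finrank_le_of_singular_minus k a b hab _ (fun u hu => by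
    rw [← coe_QMinus]; exact hs u hu)

end PlusMinus

section Count

theorem card_classes_of_reps {G : Type*} [Group G] {I : Type*} [Fintype I] (P : G → Prop)
    (rep : I → G) (hP : ∀ i, P (rep i)) (hinj : ∀ i j, IsConj (rep i) (rep j) → i = j)
    (hsurj : ∀ g, P g → ∃ i, IsConj g (rep i)) :
    Nat.card {C : ConjClasses G // ∃ g : G, ConjClasses.mk g = C ∧ P g} = Fintype.card I := by
  rw [← Nat.card_eq_fintype_card]
  symm
  apply Nat.card_congr
  refine Equiv.ofBijective (fun i => ⟨ConjClasses.mk (rep i), rep i, rfl, hP i⟩) ⟨?_, ?_⟩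
  · intro i j h
    have := congrArg Subtype.val h
    exact hinj i j (ConjClasses.mk_eq_mk_iff_isConj.1 this)
  · rintro ⟨C, g, rfl, hg⟩
    obtain ⟨i, hi⟩ := hsurj g hg
    exact ⟨i, Subtype.ext (ConjClasses.mk_eq_mk_iff_isConj.2 hi.symm)⟩

variable {ι : Type} [Fintype ι] [DecidableEq ι] {F : Type*} [Field F]
variable (Q : QuadraticForm F (ι → F))

theorem imat_one : imat Q 1 = 1 := rfl

theorem rank_pos_of_ne_one (t : ↥(Cfsg.isometryGroup F ⇑Q)) (ht : t ≠ 1) :
    0 < (imat Q t - 1).rank := by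
  rw [Nat.pos_iff_ne_zero]
  intro h0
  apply ht
  apply Cfsg.Agent.Lib.Helper51.isometry_ext
  have h1 : finrank F (LinearMap.range (imat Q t - 1).mulVecLin) = 0 := h0
  have h3 : LinearMap.range (imat Q t - 1).mulVecLin = ⊥ := Submodule.finrank_eq_zero.1 h1
  have h4 : (imat Q t - 1).mulVecLin = 0 := LinearMap.range_eq_bot.1 h3
  have h5 : imat Q t - 1 = 0 := by
    apply Matrix.toLin'.injective
    rw [Matrix.toLin'_apply', h4, map_zero]
  exact sub_eq_zero.1 h5

theorem orderOf_eq_two_iff_inv (t : ↥(Cfsg.isometryGroup F ⇑Q)) :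
    orderOf t = 2 ↔ (t * t = 1 ∧ t ≠ 1) := by
  constructor
  · intro h
    refine ⟨by rw [← pow_two, ← h, pow_orderOf_eq_one], ?_⟩
    intro h1
    rw [h1, orderOf_one] at h
    omega
  · rintro ⟨h1, h3⟩
    exact orderOf_eq_prime (by rw [pow_two, h1]) h3

theorem ne_one_of_rank_pos (t : ↥(Cfsg.isometryGroup F ⇑Q)) (h : 0 < (imat Q t - 1).rank) :
    t ≠ 1 := by
  intro h1
  rw [h1, imat_one, sub_self, Matrix.rank_zero] at h
  exact lt_irrefl 0 h

/-- the number of conjugacy classes of involutions of an orthogonal group in characteristic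
two, from the existence of representatives and the bound for the alternating type -/
theorem card_inv_classes [Fintype F] (h2 : (2 : F) = 0) (hQ : (polarBilin Q).Nondegenerate)
    (m mA : ℕ) (hcard : Fintype.card ι = 2 * m)
    (hNA : ∀ l, 0 < l → l ≤ m → ∃ t : ↥(Cfsg.isometryGroup F ⇑Q), t * t = 1 ∧
      (imat Q t - 1).rank = l ∧ ¬ IsAltInv Q t)
    (hAL : ∀ j, 0 < j → j ≤ mA → ∃ t : ↥(Cfsg.isometryGroup F ⇑Q), t * t = 1 ∧
      (imat Q t - 1).rank = 2 * j ∧ IsAltInv Q t)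
    (hbound : ∀ t : ↥(Cfsg.isometryGroup F ⇑Q), t * t = 1 → IsAltInv Q t →
      (imat Q t - 1).rank ≤ 2 * mA) :
    Nat.card {C : ConjClasses ↥(Cfsg.isometryGroup F ⇑Q) //
      ∃ g : ↥(Cfsg.isometryGroup F ⇑Q), ConjClasses.mk g = C ∧ orderOf g = 2} = m + mA := by
  choose repNA hNA1 hNA2 hNA3 using
    (fun i : Fin m => hNA (i.val + 1) (by omega) (by have := i.isLt; omega))
  choose repAL hAL1 hAL2 hAL3 using
    (fun j : Fin mA => hAL (j.val + 1) (by omega) (by have := j.isLt; omega))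
  have key := card_classes_of_reps (G := ↥(Cfsg.isometryGroup F ⇑Q)) (I := Fin m ⊕ Fin mA)
    (fun g => orderOf g = 2) (Sum.elim repNA repAL) ?_ ?_ ?_
  · rw [key, Fintype.card_sum, Fintype.card_fin, Fintype.card_fin]
  · rintro (i | j)
    · rw [Sum.elim_inl, orderOf_eq_two_iff_inv]
      exact ⟨hNA1 i, ne_one_of_rank_pos Q _ (by rw [hNA2]; omega)⟩
    · rw [Sum.elim_inr, orderOf_eq_two_iff_inv]
      exact ⟨hAL1 j, ne_one_of_rank_pos Q _ (by rw [hAL2]; omega)⟩
  · rintro (i | j) (i' | j') hc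
    · rw [Sum.elim_inl, Sum.elim_inl] at hc
      have := rank_of_isConj_iso Q _ _ hc
      rw [hNA2, hNA2] at this
      exact congrArg Sum.inl (Fin.ext (by omega))
    · rw [Sum.elim_inl, Sum.elim_inr] at hc
      exact absurd (alt_of_isConj Q _ _ hc.symm (hAL3 j')) (hNA3 i)
    · rw [Sum.elim_inr, Sum.elim_inl] at hc
      exact absurd (alt_of_isConj Q _ _ hc (hAL3 j)) (hNA3 i')
    · rw [Sum.elim_inr, Sum.elim_inr] at hc
      have := rank_of_isConj_iso Q _ _ hc
      rw [hAL2, hAL2] at this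
      exact congrArg Sum.inr (Fin.ext (by omega))
  · intro g hg
    rw [orderOf_eq_two_iff_inv] at hg
    obtain ⟨hg1, hg2⟩ := hg
    have hpos := rank_pos_of_ne_one Q g hg2
    have hle := two_mul_rank_le Q h2 g hg1
    by_cases halt : IsAltInv Q g
    · obtain ⟨r, hr⟩ := even_rank_of_alt Q h2 hQ g hg1 halt
      have hb := hbound g hg1 halt
      have hr1 : r - 1 < mA := by omega
      refine ⟨Sum.inr ⟨r - 1, hr1⟩, ?_⟩
      rw [Sum.elim_inr, isConj_inv_iff Q h2 hQ g _ hg1 (hAL1 _)]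
      refine ⟨?_, fun _ => hAL3 _, fun _ => halt⟩
      rw [hAL2]
      show _ = 2 * (r - 1 + 1)
      omega
    · have hl1 : (imat Q g - 1).rank - 1 < m := by omega
      refine ⟨Sum.inl ⟨(imat Q g - 1).rank - 1, hl1⟩, ?_⟩
      rw [Sum.elim_inl, isConj_inv_iff Q h2 hQ g _ hg1 (hNA1 _)]
      refine ⟨?_, fun h => absurd h halt, fun h => absurd h (hNA3 _)⟩
      rw [hNA2]
      show _ = (imat Q g - 1).rank - 1 + 1
      omega

end Count

end Cfsg.Agent.Lib.Helper44
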