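import Mathlib
import Cfsg.Agent.Lib.Helper44.InvForms
import Cfsg.Agent.Lib.Helper44.OrthPlus

/-!
# Involution classes of `Ω^±_{2m}(q)`, `q` even (helper44)

`Ω` is the commutator subgroup of the isometry group `O` of `Q` (finite field, characteristic
two, polar form non-degenerate, not dimension 4 over the field of two elements).

* `omega_conj_of_conj`: an `O`-class of an involution of `Ω` which is not of the exceptional kind
  (rank `m`, alternating type) is a single `Ω`-class;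
* `omega_split_not_conj`, `omega_split_cover`: the exceptional class splits in exactly two;
* `card_inv_classes_omega`: the number of classes of involutions of `Ω`.
-/

set_option autoImplicit false

namespace Cfsg.Agent.Lib.Helper44

open Module QuadraticMap Cfsg.Agent.Lib.Helper51 Cfsg.Agent.Lib.Helper52

section Omega

variable {ι : Type} [Fintype ι] [DecidableEq ι] {F : Type*} [Field F]
variable (Q : QuadraticForm F (ι → F))

theorem isConj_omega_iff (a b : ↥(commutator ↥(Cfsg.isometryGroup F ⇑Q))) :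
    IsConj a b ↔ ∃ g ∈ commutator ↥(Cfsg.isometryGroup F ⇑Q),
      g * (a : ↥(Cfsg.isometryGroup F ⇑Q)) * g⁻¹ = (b : ↥(Cfsg.isometryGroup F ⇑Q)) := by
  rw [isConj_iff]
  constructor
  · rintro ⟨c, hc⟩
    exact ⟨c.1, c.2, congrArg Subtype.val hc⟩
  · rintro ⟨g, hg, h⟩
    exact ⟨⟨g, hg⟩, Subtype.ext h⟩

variable [Fintype F] [Nonempty ι]

theorem mem_omega_iff (h2 : (2 : F) = 0) (hQ : (polarBilin Q).Nondegenerate)
    (h : Fintype.card F ≠ 2 ∨ Fintype.card ι ≠ 4) (t : ↥(Cfsg.isometryGroup F ⇑Q)) :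
    t ∈ commutator ↥(Cfsg.isometryGroup F ⇑Q) ↔ Even (imat Q t - 1).rank :=
  mem_commutator_iff_even_rank Q h2 hQ h t

theorem omega_conj_of_conj (h2 : (2 : F) = 0) (hQ : (polarBilin Q).Nondegenerate)
    (h : Fintype.card F ≠ 2 ∨ Fintype.card ι ≠ 4) (m : ℕ) (hm : Fintype.card ι = 2 * m)
    (t s : ↥(Cfsg.isometryGroup F ⇑Q)) (ht : t * t = 1)
    (htO : t ∈ commutator ↥(Cfsg.isometryGroup F ⇑Q)) (hconj : IsConj t s)
    (hne : ¬ ((imat Q t - 1).rank = m ∧ IsAltInv Q t)) :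
    ∃ g ∈ commutator ↥(Cfsg.isometryGroup F ⇑Q), g * t * g⁻¹ = s :=
  (split_plus Q h2 hQ h m hm t s ht htO hconj).1 hne

theorem omega_split_not_conj (h2 : (2 : F) = 0) (hQ : (polarBilin Q).Nondegenerate)
    (h : Fintype.card F ≠ 2 ∨ Fintype.card ι ≠ 4) (m : ℕ) (hm : Fintype.card ι = 2 * m)
    (t : ↥(Cfsg.isometryGroup F ⇑Q)) (ht : t * t = 1)
    (htO : t ∈ commutator ↥(Cfsg.isometryGroup F ⇑Q))
    (hrank : (imat Q t - 1).rank = m) (halt : IsAltInv Q t) (u : ι → F) (hu : Q u ≠ 0) :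
    ¬ ∃ g ∈ commutator ↥(Cfsg.isometryGroup F ⇑Q),
      g * t * g⁻¹ = refl Q u hu * t * (refl Q u hu)⁻¹ := by
  have hsp := (split_plus Q h2 hQ h m hm t (refl Q u hu * t * (refl Q u hu)⁻¹) ht htO
    (isConj_iff.2 ⟨refl Q u hu, rfl⟩)).2 ⟨hrank, halt⟩
  rw [hsp, range_conj Q (refl Q u hu) t _ rfl]
  have hU : ∀ x ∈ LinearMap.range (Matrix.toLin' (imat Q t - 1)), Q x = 0 := by
    rw [Matrix.toLin'_apply']
    exact range_singular_of_alt Q h2 t ht halt
  have hd : 2 * finrank F (LinearMap.range (Matrix.toLin' (imat Q t - 1))) = Fintype.card ι := by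
    rw [Matrix.toLin'_apply', hm]
    have : (imat Q t - 1).rank = finrank F (LinearMap.range (imat Q t - 1).mulVecLin) := rfl
    omega
  have hfl := even_inf_flip Q hQ _ hU hd 1 u hu
  rw [mul_one] at hfl
  rw [hfl]
  have e1 : Matrix.toLin' (imat Q (1 : ↥(Cfsg.isometryGroup F ⇑Q))) = LinearMap.id := by
    rw [imat_one, Matrix.toLin'_one]
  rw [e1, Submodule.map_id, inf_idem, not_not]
  have hev := even_rank_of_alt Q h2 hQ t ht halt
  have : (imat Q t - 1).rank = finrank F (LinearMap.range (Matrix.toLin' (imat Q t - 1))) := by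
    rw [Matrix.toLin'_apply']
    rfl
  rw [← this]
  exact hev

theorem omega_split_cover (h2 : (2 : F) = 0) (hQ : (polarBilin Q).Nondegenerate)
    (h : Fintype.card F ≠ 2 ∨ Fintype.card ι ≠ 4)
    (t s : ↥(Cfsg.isometryGroup F ⇑Q)) (hconj : IsConj t s) (u : ι → F) (hu : Q u ≠ 0) :
    (∃ g ∈ commutator ↥(Cfsg.isometryGroup F ⇑Q), g * t * g⁻¹ = s) ∨
      (∃ g ∈ commutator ↥(Cfsg.isometryGroup F ⇑Q),
        g * (refl Q u hu * t * (refl Q u hu)⁻¹) * g⁻¹ = s) := by
  obtain ⟨c, hc⟩ := isConj_iff.1 hconj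
  by_cases hcO : c ∈ commutator ↥(Cfsg.isometryGroup F ⇑Q)
  · exact Or.inl ⟨c, hcO, hc⟩
  · right
    refine ⟨c * (refl Q u hu)⁻¹, ?_, ?_⟩
    · rw [mem_omega_iff Q h2 hQ h]
      by_contra hodd
      have hfl := (even_rank_flip Q hQ (c * (refl Q u hu)⁻¹) u hu).2 hodd
      have hmem : refl Q u hu * (c * (refl Q u hu)⁻¹) ∈ commutator ↥(Cfsg.isometryGroup F ⇑Q) :=
        (mem_omega_iff Q h2 hQ h _).2 hfl
      have hn : (commutator ↥(Cfsg.isometryGroup F ⇑Q)).Normal := inferInstance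
      have h3 := hn.conj_mem _ hmem (refl Q u hu)⁻¹
      apply hcO
      have e : (refl Q u hu)⁻¹ * (refl Q u hu * (c * (refl Q u hu)⁻¹)) * (refl Q u hu)⁻¹⁻¹ = c := by
        group
      rw [e] at h3
      exact h3
    · rw [← hc]
      group

/-- the number of conjugacy classes of involutions of `Ω` -/
theorem card_inv_classes_omega (h2 : (2 : F) = 0) (hQ : (polarBilin Q).Nondegenerate)
    (h : Fintype.card F ≠ 2 ∨ Fintype.card ι ≠ 4) (m mA : ℕ) (hm0 : 0 < m)
    (hcard : Fintype.card ι = 2 * m)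
    (hNA : ∀ l, 0 < l → l ≤ m → ∃ t : ↥(Cfsg.isometryGroup F ⇑Q), t * t = 1 ∧
      (imat Q t - 1).rank = l ∧ ¬ IsAltInv Q t)
    (hAL : ∀ j, 0 < j → j ≤ mA → ∃ t : ↥(Cfsg.isometryGroup F ⇑Q), t * t = 1 ∧
      (imat Q t - 1).rank = 2 * j ∧ IsAltInv Q t)
    (hbound : ∀ t : ↥(Cfsg.isometryGroup F ⇑Q), t * t = 1 → IsAltInv Q t →
      (imat Q t - 1).rank ≤ 2 * mA) :
    Nat.card {C : ConjClasses ↥(commutator ↥(Cfsg.isometryGroup F ⇑Q)) //
      ∃ g : ↥(commutator ↥(Cfsg.isometryGroup F ⇑Q)), ConjClasses.mk g = C ∧ orderOf g = 2}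
      = m / 2 + mA + (if 2 * mA = m then 1 else 0) := by
  classical
  obtain ⟨e, hedef⟩ : ∃ e : ℕ, e = if 2 * mA = m then 1 else 0 := ⟨_, rfl⟩
  rw [← hedef]
  have he1 : e ≤ 1 := by
    rw [hedef]
    split_ifs <;> omega
  have he2 : 0 < e → 2 * mA = m := by
    intro hpos
    by_contra hne
    rw [hedef, if_neg hne] at hpos
    omega
  have he3 : 2 * mA = m → 0 < e := by
    intro hsp
    rw [hedef, if_pos hsp]
    exact Nat.one_pos
  have hmem := mem_omega_iff Q h2 hQ h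
  obtain ⟨u, hu⟩ := exists_Q_ne_zero Q hQ
  choose repNA hNA1 hNA2 hNA3 using
    (fun i : Fin (m / 2) => hNA (2 * (i.val + 1)) (by omega) (by have := i.isLt; omega))
  choose repAL hAL1 hAL2 hAL3 using
    (fun j : Fin mA => hAL (j.val + 1) (by omega) (by have := j.isLt; omega))
  have hNAΩ : ∀ i, repNA i ∈ commutator ↥(Cfsg.isometryGroup F ⇑Q) := fun i =>
    (hmem _).2 (by rw [hNA2]; exact ⟨i.val + 1, by ring⟩)
  have hALΩ : ∀ j, repAL j ∈ commutator ↥(Cfsg.isometryGroup F ⇑Q) := fun j =>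
    (hmem _).2 (by rw [hAL2]; exact ⟨j.val + 1, by ring⟩)
  have h2mA : 2 * mA ≤ m := by
    by_contra hcon
    have hmA : 0 < mA := by omega
    have h1 := two_mul_rank_le Q h2 (repAL ⟨mA - 1, by omega⟩) (hAL1 _)
    rw [hAL2, hcard] at h1
    have : (⟨mA - 1, by omega⟩ : Fin mA).val = mA - 1 := rfl
    omega
  -- the top alternating representative
  obtain ⟨topAL, htop⟩ : ∃ topAL : ↥(Cfsg.isometryGroup F ⇑Q),
      topAL ∈ commutator ↥(Cfsg.isometryGroup F ⇑Q) ∧
      (2 * mA = m → topAL * topAL = 1 ∧ (imat Q topAL - 1).rank = m ∧ IsAltInv Q topAL ∧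
        ∀ j : Fin mA, (imat Q (repAL j) - 1).rank = m → repAL j = topAL) := by
    by_cases hmA : 0 < mA
    · refine ⟨repAL ⟨mA - 1, by omega⟩, hALΩ _, fun hsp => ⟨hAL1 _, ?_, hAL3 _, ?_⟩⟩
      · rw [hAL2]
        show 2 * (mA - 1 + 1) = m
        omega
      · intro j hj
        rw [hAL2] at hj
        have : j = ⟨mA - 1, by omega⟩ := Fin.ext (by show j.val = mA - 1; omega)
        rw [this]
    · exact ⟨1, Subgroup.one_mem _, fun hsp => by omega⟩
  obtain ⟨htopΩ, htop'⟩ := htop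
  have hn : (commutator ↥(Cfsg.isometryGroup F ⇑Q)).Normal := inferInstance
  have hextraΩ : refl Q u hu * topAL * (refl Q u hu)⁻¹ ∈ commutator ↥(Cfsg.isometryGroup F ⇑Q) :=
    hn.conj_mem _ htopΩ _
  have he : ∀ x : Fin e, 2 * mA = m := fun x => he2 (by have := x.isLt; omega)
  have hconjG : ∀ a b : ↥(commutator ↥(Cfsg.isometryGroup F ⇑Q)), IsConj a b →
      IsConj (a : ↥(Cfsg.isometryGroup F ⇑Q)) (b : ↥(Cfsg.isometryGroup F ⇑Q)) := by
    intro a b hab
    obtain ⟨g, -, hg⟩ := (isConj_omega_iff Q a b).1 hab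
    exact isConj_iff.2 ⟨g, hg⟩
  have hextra_conj : IsConj topAL (refl Q u hu * topAL * (refl Q u hu)⁻¹) :=
    isConj_iff.2 ⟨refl Q u hu, rfl⟩
  have key := card_classes_of_reps (G := ↥(commutator ↥(Cfsg.isometryGroup F ⇑Q)))
    (I := Fin (m / 2) ⊕ (Fin mA ⊕ Fin e))
    (fun g => orderOf g = 2)
    (Sum.elim (fun i => ⟨repNA i, hNAΩ i⟩)
      (Sum.elim (fun j => ⟨repAL j, hALΩ j⟩)
        (fun _ => ⟨refl Q u hu * topAL * (refl Q u hu)⁻¹, hextraΩ⟩))) ?_ ?_ ?_
  · rw [key, Fintype.card_sum, Fintype.card_sum, Fintype.card_fin, Fintype.card_fin,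
      Fintype.card_fin, add_assoc]
  · rintro (i | j | x)
    · rw [Sum.elim_inl, Subgroup.orderOf_mk, orderOf_eq_two_iff_inv]
      exact ⟨hNA1 i, ne_one_of_rank_pos Q _ (by rw [hNA2]; omega)⟩
    · rw [Sum.elim_inr, Sum.elim_inl, Subgroup.orderOf_mk, orderOf_eq_two_iff_inv]
      exact ⟨hAL1 j, ne_one_of_rank_pos Q _ (by rw [hAL2]; omega)⟩
    · rw [Sum.elim_inr, Sum.elim_inr, Subgroup.orderOf_mk, orderOf_eq_two_iff_inv]
      obtain ⟨ht1, ht2, -, -⟩ := htop' (he x)
      refine ⟨?_, ne_one_of_rank_pos Q _ ?_⟩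
      · have e : refl Q u hu * topAL * (refl Q u hu)⁻¹ * (refl Q u hu * topAL * (refl Q u hu)⁻¹)
            = refl Q u hu * (topAL * topAL) * (refl Q u hu)⁻¹ := by group
        rw [e, ht1]
        group
      · rw [← rank_of_isConj_iso Q _ _ hextra_conj, ht2]
        exact hm0
  · rintro (i | j | x) (i' | j' | x') hc
    · have := rank_of_isConj_iso Q _ _ (hconjG _ _ hc)
      simp only [Sum.elim_inl] at this
      rw [hNA2, hNA2] at this
      exact congrArg Sum.inl (Fin.ext (by omega))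
    · have := alt_of_isConj Q _ _ (hconjG _ _ hc).symm
      simp only [Sum.elim_inl, Sum.elim_inr] at this
      exact absurd (this (hAL3 j')) (hNA3 i)
    · obtain ⟨-, -, ht3, -⟩ := htop' (he x')
      have := alt_of_isConj Q _ _ (hconjG _ _ hc).symm
      simp only [Sum.elim_inl, Sum.elim_inr] at this
      exact absurd (this (alt_of_isConj Q _ _ hextra_conj ht3)) (hNA3 i)
    · have := alt_of_isConj Q _ _ (hconjG _ _ hc)
      simp only [Sum.elim_inl, Sum.elim_inr] at this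
      exact absurd (this (hAL3 j)) (hNA3 i')
    · have := rank_of_isConj_iso Q _ _ (hconjG _ _ hc)
      simp only [Sum.elim_inl, Sum.elim_inr] at this
      rw [hAL2, hAL2] at this
      exact congrArg Sum.inr (congrArg Sum.inl (Fin.ext (by omega)))
    · exfalso
      obtain ⟨ht1, ht2, ht3, ht4⟩ := htop' (he x')
      have hr := rank_of_isConj_iso Q _ _ (hconjG _ _ hc)
      simp only [Sum.elim_inl, Sum.elim_inr] at hr
      rw [← rank_of_isConj_iso Q _ _ hextra_conj, ht2] at hr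
      have hj := ht4 j hr
      obtain ⟨g, hg, hg'⟩ := (isConj_omega_iff Q _ _).1 hc
      simp only [Sum.elim_inl, Sum.elim_inr] at hg'
      rw [hj] at hg'
      exact omega_split_not_conj Q h2 hQ h m hcard topAL ht1 htopΩ ht2 ht3 u hu ⟨g, hg, hg'⟩
    · obtain ⟨-, -, ht3, -⟩ := htop' (he x)
      have := alt_of_isConj Q _ _ (hconjG _ _ hc)
      simp only [Sum.elim_inl, Sum.elim_inr] at this
      exact absurd (this (alt_of_isConj Q _ _ hextra_conj ht3)) (hNA3 i')
    · exfalso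
      obtain ⟨ht1, ht2, ht3, ht4⟩ := htop' (he x)
      have hr := rank_of_isConj_iso Q _ _ (hconjG _ _ hc.symm)
      simp only [Sum.elim_inl, Sum.elim_inr] at hr
      rw [← rank_of_isConj_iso Q _ _ hextra_conj, ht2] at hr
      have hj := ht4 j' hr
      obtain ⟨g, hg, hg'⟩ := (isConj_omega_iff Q _ _).1 hc.symm
      simp only [Sum.elim_inl, Sum.elim_inr] at hg'
      rw [hj] at hg'
      exact omega_split_not_conj Q h2 hQ h m hcard topAL ht1 htopΩ ht2 ht3 u hu ⟨g, hg, hg'⟩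
    · have h1 := x.isLt
      have h3 := x'.isLt
      exact congrArg Sum.inr (congrArg Sum.inr (Fin.ext (by omega)))
  · rintro ⟨t, htΩ⟩ hg
    rw [Subgroup.orderOf_mk, orderOf_eq_two_iff_inv] at hg
    obtain ⟨hg1, hg2⟩ := hg
    have hpos := rank_pos_of_ne_one Q t hg2
    have hle := two_mul_rank_le Q h2 t hg1
    rw [hcard] at hle
    obtain ⟨r, hr⟩ := (hmem t).1 htΩ
    by_cases halt : IsAltInv Q t
    · have hb := hbound t hg1 halt
      have hr1 : r - 1 < mA := by omega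
      have hcj : IsConj t (repAL ⟨r - 1, hr1⟩) := by
        rw [isConj_inv_iff Q h2 hQ t _ hg1 (hAL1 _)]
        refine ⟨?_, fun _ => hAL3 _, fun _ => halt⟩
        rw [hAL2]
        show _ = 2 * (r - 1 + 1)
        omega
      by_cases hrm : (imat Q t - 1).rank = m
      · have hsp : 2 * mA = m := by omega
        obtain ⟨ht1, ht2, ht3, ht4⟩ := htop' hsp
        have hj : repAL ⟨r - 1, hr1⟩ = topAL := ht4 _ (by rw [← rank_of_isConj_iso Q _ _ hcj, hrm])
        rw [hj] at hcj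
        rcases omega_split_cover Q h2 hQ h topAL t hcj.symm u hu with ⟨g, hg, hg'⟩ | ⟨g, hg, hg'⟩
        · refine ⟨Sum.inr (Sum.inl ⟨r - 1, hr1⟩), ?_⟩
          rw [isConj_omega_iff]
          simp only [Sum.elim_inl, Sum.elim_inr]
          refine ⟨g⁻¹, Subgroup.inv_mem _ hg, ?_⟩
          rw [hj, ← hg']
          group
        · refine ⟨Sum.inr (Sum.inr ⟨0, he3 hsp⟩), ?_⟩
          rw [isConj_omega_iff]
          simp only [Sum.elim_inr]
          refine ⟨g⁻¹, Subgroup.inv_mem _ hg, ?_⟩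
          rw [← hg']
          group
      · obtain ⟨g, hg, hg'⟩ := omega_conj_of_conj Q h2 hQ h m hcard t _ hg1 htΩ hcj
          (fun hh => hrm hh.1)
        refine ⟨Sum.inr (Sum.inl ⟨r - 1, hr1⟩), ?_⟩
        rw [isConj_omega_iff]
        exact ⟨g, hg, hg'⟩
    · have hr1 : r - 1 < m / 2 := by omega
      have hcj : IsConj t (repNA ⟨r - 1, hr1⟩) := by
        rw [isConj_inv_iff Q h2 hQ t _ hg1 (hNA1 _)]
        refine ⟨?_, fun hh => absurd hh halt, fun hh => absurd hh (hNA3 _)⟩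
        rw [hNA2]
        show _ = 2 * (r - 1 + 1)
        omega
      obtain ⟨g, hg, hg'⟩ := omega_conj_of_conj Q h2 hQ h m hcard t _ hg1 htΩ hcj
        (fun hh => halt hh.2)
      refine ⟨Sum.inl ⟨r - 1, hr1⟩, ?_⟩
      rw [isConj_omega_iff]
      exact ⟨g, hg, hg'⟩

end Omega

end Cfsg.Agent.Lib.Helper44
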