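import Mathlib
import Cfsg.Agent.Lib.Helper93.SUPair
import Cfsg.Agent.Lib.Helper18.UnitaryFr

/-!
# Three conjugate regular unipotent elements generating `SU_n(q)`, `n` odd: foundations (helper44)

* `WFr q n m e f d`: a Witt frame `e 0 .. e (m-1)`, `f 0 .. f (m-1)`, `d` of `F^n` for the standard
  hermitian form (hyperbolic pairs `(e i, f i)`, unit vector `d`, completeness).
* `Wc q e f j`: the vectors orthogonal to `e i, f i` for `i < j`.
* `TIn q H v c`: the unitary transvection `t_v(c)` is (the matrix of) an element of `H`.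
* `KProp q H`: the statement of the Heisenberg commutator lemma (proved in `SURegK`).
* `cen_plane`: closure of transvection centres under hyperbolic lines.
-/

set_option autoImplicit false
set_option linter.unusedSectionVars false
set_option linter.unusedVariables false

namespace Cfsg.Agent.Lib.Helper44.SUReg

open Matrix Cfsg.Agent.Lib.Helper7 Cfsg.Agent.Lib.Helper18 Cfsg.Agent.Lib.Helper93

section
variable {F : Type*} [Field F] [Fintype F] {q n m : ℕ}

/-- A Witt frame of `F^n` (`n = 2m+1`): isotropic `e i`, `f i` (`i < m`) with `h(e i, f j) = δ_ij`,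
a unit vector `d` orthogonal to all of them, and completeness. -/
structure WFr (q n m : ℕ) (e f : ℕ → Fin n → F) (d : Fin n → F) : Prop where
  ee : ∀ i j, i < m → j < m → Cfsg.hermForm n F q (e i) (e j) = 0
  ff : ∀ i j, i < m → j < m → Cfsg.hermForm n F q (f i) (f j) = 0
  ef : ∀ i j, i < m → j < m → Cfsg.hermForm n F q (e i) (f j) = if i = j then 1 else 0
  de : ∀ i, i < m → Cfsg.hermForm n F q d (e i) = 0
  df : ∀ i, i < m → Cfsg.hermForm n F q d (f i) = 0
  dd : Cfsg.hermForm n F q d d = 1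
  cpl : ∀ v : Fin n → F, (∀ i, i < m → Cfsg.hermForm n F q v (e i) = 0 ∧
    Cfsg.hermForm n F q v (f i) = 0) → Cfsg.hermForm n F q v d = 0 → v = 0

theorem WFr.fe (hF : Fintype.card F = q ^ 2) {e f : ℕ → Fin n → F} {d : Fin n → F}
    (fr : WFr q n m e f d) (i j : ℕ) (hi : i < m) (hj : j < m) :
    Cfsg.hermForm n F q (f i) (e j) = if i = j then 1 else 0 := by
  rw [hf_conj hF n (e j) (f i), fr.ef j i hj hi]
  by_cases h : i = j
  · subst h; simp
  · rw [if_neg h, if_neg (fun h' => h h'.symm), zero_pow (herm_q_ne_zero hF)]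

theorem WFr.ed (hF : Fintype.card F = q ^ 2) {e f : ℕ → Fin n → F} {d : Fin n → F}
    (fr : WFr q n m e f d) (i : ℕ) (hi : i < m) : Cfsg.hermForm n F q (e i) d = 0 :=
  hf_eq_zero_symm hF n _ _ (fr.de i hi)

theorem WFr.fd (hF : Fintype.card F = q ^ 2) {e f : ℕ → Fin n → F} {d : Fin n → F}
    (fr : WFr q n m e f d) (i : ℕ) (hi : i < m) : Cfsg.hermForm n F q (f i) d = 0 :=
  hf_eq_zero_symm hF n _ _ (fr.df i hi)

/-- the vectors orthogonal to `e i` and `f i` for all `i < j` -/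
def Wc (q : ℕ) (e f : ℕ → Fin n → F) (j : ℕ) : Submodule F (Fin n → F) where
  carrier := {v | ∀ i, i < j → Cfsg.hermForm n F q v (e i) = 0 ∧ Cfsg.hermForm n F q v (f i) = 0}
  add_mem' := by
    intro a b ha hb i hi
    rw [hf_add_left, hf_add_left, (ha i hi).1, (ha i hi).2, (hb i hi).1, (hb i hi).2, add_zero]
    exact ⟨rfl, rfl⟩
  zero_mem' := by
    intro i hi
    rw [hf_zero_left, hf_zero_left]
    exact ⟨rfl, rfl⟩
  smul_mem' := by
    intro c a ha i hi
    rw [hf_smul_left, hf_smul_left, (ha i hi).1, (ha i hi).2, mul_zero]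
    exact ⟨rfl, rfl⟩

theorem mem_Wc {e f : ℕ → Fin n → F} {j : ℕ} {v : Fin n → F} :
    v ∈ Wc q e f j ↔ ∀ i, i < j → Cfsg.hermForm n F q v (e i) = 0 ∧
      Cfsg.hermForm n F q v (f i) = 0 := Iff.rfl

/-- the unitary transvection `t_v(c)` is the matrix of an element of `H` -/
abbrev TIn (q : ℕ) (H : Subgroup (GL (Fin n) F)) (v : Fin n → F) (c : F) : Prop :=
  MIn H (Cfsg.unitaryTransvection n q v c)

/-- The Heisenberg commutator statement: if `v ⊥ w` are isotropic, `p₁, p₂ ⊥ v` are isotropic,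
`t_v(a_i), t_w(a_i), t_{v+w}(a_i) ∈ H` and `t_{p_i}(a_i') ∈ H`, then `t_v((z - z^q) a₁ a₁' a₂ a₂') ∈ H`
where `z = h(w,p₁) h(w,p₂)^q h(p₁,p₂)`. -/
def KProp (q : ℕ) (H : Subgroup (GL (Fin n) F)) : Prop :=
  ∀ (v w p₁ p₂ : Fin n → F) (a₁ a₁' a₂ a₂' : F),
    Cfsg.hermForm n F q v v = 0 → Cfsg.hermForm n F q w w = 0 → Cfsg.hermForm n F q v w = 0 →
    Cfsg.hermForm n F q p₁ p₁ = 0 → Cfsg.hermForm n F q p₂ p₂ = 0 →
    Cfsg.hermForm n F q p₁ v = 0 → Cfsg.hermForm n F q p₂ v = 0 →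
    a₁ + a₁ ^ q = 0 → a₁' + a₁' ^ q = 0 → a₂ + a₂ ^ q = 0 → a₂' + a₂' ^ q = 0 →
    TIn q H v a₁ → TIn q H w a₁ → TIn q H (v + w) a₁ →
    TIn q H v a₂ → TIn q H w a₂ → TIn q H (v + w) a₂ →
    TIn q H p₁ a₁' → TIn q H p₂ a₂' →
    TIn q H v ((Cfsg.hermForm n F q w p₁ * Cfsg.hermForm n F q w p₂ ^ q * Cfsg.hermForm n F q p₁ p₂ -
      (Cfsg.hermForm n F q w p₁ * Cfsg.hermForm n F q w p₂ ^ q * Cfsg.hermForm n F q p₁ p₂) ^ q) *
      (a₁ * a₁' * a₂ * a₂'))

/-- closure of centres under hyperbolic lines: every isotropic vector in the plane spanned by two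
non-orthogonal centres is a centre -/
theorem cen_plane (hF : Fintype.card F = q ^ 2) {H : Subgroup (GL (Fin n) F)}
    (hH : H ≤ Cfsg.GU n F q ⊓ Cfsg.Geo.specialLinear (Fin n) F) {x y : Fin n → F}
    (hx : Cen q H x) (hy : Cen q H y) (hxy : Cfsg.hermForm n F q y x ≠ 0) (α β : F)
    (hiso : Cfsg.hermForm n F q (α • x + β • y) (α • x + β • y) = 0) :
    Cen q H (α • x + β • y) := by
  by_cases hβ : β = 0
  · rw [hβ, zero_smul, add_zero]
    exact hx.smul hF α
  by_cases hα : α = 0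
  · rw [hα, zero_smul, zero_add]
    exact hy.smul hF β
  have hx' := hx.smul hF α
  have hy' := hy.smul hF β
  have hne : Cfsg.hermForm n F q (β • y) (α • x) ≠ 0 := by
    rw [hf_smul_left, hf_smul_right]
    exact mul_ne_zero hβ (mul_ne_zero (pow_ne_zero _ hα) hxy)
  apply cen_add hF hH hx' hy' hne
  have h1 : Cfsg.hermForm n F q (α • x) (α • x) = 0 := hx'.1
  have h2 : Cfsg.hermForm n F q (β • y) (β • y) = 0 := hy'.1
  rw [hf_add_left, hf_add_right hF, hf_add_right hF, h1, h2,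
    hf_conj hF n (β • y) (α • x)] at hiso
  linear_combination hiso

end

end Cfsg.Agent.Lib.Helper44.SUReg
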