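import Mathlib
import Cfsg.Agent.Lib.Helper44.InvForms

/-!
# Involution classes of the commutator subgroup of a group isomorphic to `S₅` (helper44)

`card_inv_classes_commutator_S5`: if `G ≃* Perm (Fin 5)` then the commutator subgroup of `G`
has exactly one conjugacy class of involutions (`A₅` has one class of involutions).
-/

set_option autoImplicit false

namespace Cfsg.Agent.Lib.Helper44

open Equiv Equiv.Perm

section S5

theorem mem_commutator_map {G H : Type*} [Group G] [Group H] (f : G →* H) {x : G}
    (hx : x ∈ commutator G) : f x ∈ commutator H := by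
  have h1 : f x ∈ (commutator G).map f := Subgroup.mem_map_of_mem f hx
  rw [map_commutator_eq] at h1
  rw [commutator_def]
  exact Subgroup.commutator_mono le_top le_top h1

/-- the standard double transposition -/
def dtrans : Perm (Fin 5) := swap 0 4 * swap 1 3

theorem dtrans_mem : dtrans ∈ alternatingGroup (Fin 5) := by
  rw [mem_alternatingGroup]
  decide

theorem dtrans_order : orderOf dtrans = 2 := by
  apply orderOf_eq_prime
  · decide
  · decide

set_option linter.deprecated false in
theorem A5_conj (σ : Perm (Fin 5)) (hσ : σ ∈ alternatingGroup (Fin 5)) (ho : orderOf σ = 2) :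
    ∃ g ∈ alternatingGroup (Fin 5), g * dtrans * g⁻¹ = σ := by
  have h1 : σ ≠ 1 := by
    rintro rfl
    rw [orderOf_one] at ho
    omega
  have h2 : ∀ n, n ∈ cycleType σ → n = 2 := by
    intro n hn
    have hd : n ∣ 2 := by
      rw [← ho, ← lcm_cycleType]
      exact Multiset.dvd_lcm hn
    have h2le := two_le_of_mem_cycleType hn
    have := Nat.le_of_dvd (by norm_num) hd
    omega
  obtain ⟨g, hg⟩ := isConj_iff.1
    (alternatingGroup.isConj_swap_mul_swap_of_cycleType_two hσ h1 h2)
  by_cases hgA : g ∈ alternatingGroup (Fin 5)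
  · exact ⟨g, hgA, hg⟩
  · refine ⟨g * swap 0 4, ?_, ?_⟩
    · rw [mem_alternatingGroup] at hgA ⊢
      rw [Perm.sign_mul, Perm.sign_swap (by decide)]
      rcases Int.units_eq_one_or (sign g) with h | h
      · exact absurd h hgA
      · rw [h]
        rfl
    · rw [← hg]
      have hcomm : swap (0 : Fin 5) 4 * dtrans * (swap (0 : Fin 5) 4)⁻¹ = dtrans := by decide
      calc g * swap 0 4 * dtrans * (g * swap 0 4)⁻¹
          = g * (swap 0 4 * dtrans * (swap (0 : Fin 5) 4)⁻¹) * g⁻¹ := by group
        _ = g * dtrans * g⁻¹ := by rw [hcomm]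

theorem card_inv_classes_commutator_S5 {G : Type*} [Group G] (e : G ≃* Perm (Fin 5)) :
    Nat.card {C : ConjClasses ↥(commutator G) //
      ∃ g : ↥(commutator G), ConjClasses.mk g = C ∧ orderOf g = 2} = 1 := by
  have hA : commutator (Perm (Fin 5)) = alternatingGroup (Fin 5) :=
    alternatingGroup.commutator_perm_eq (by simp)
  have hx₀ : e.symm dtrans ∈ commutator G :=
    mem_commutator_map e.symm.toMonoidHom (by rw [hA]; exact dtrans_mem)
  have key := card_classes_of_reps (G := ↥(commutator G)) (I := Unit)
    (fun g => orderOf g = 2) (fun _ => ⟨e.symm dtrans, hx₀⟩) ?_ ?_ ?_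
  · rw [key, Fintype.card_unit]
  · intro _
    rw [Subgroup.orderOf_mk, MulEquiv.orderOf_eq]
    exact dtrans_order
  · intro i j _
    rfl
  · rintro ⟨x, hx⟩ ho
    rw [Subgroup.orderOf_mk] at ho
    have hσ : e x ∈ alternatingGroup (Fin 5) := by
      rw [← hA]
      exact mem_commutator_map e.toMonoidHom hx
    have ho' : orderOf (e x) = 2 := by rw [MulEquiv.orderOf_eq]; exact ho
    obtain ⟨g, hg, hg'⟩ := A5_conj (e x) hσ ho'
    refine ⟨(), ?_⟩
    apply IsConj.symm
    rw [isConj_iff]
    have hgc : e.symm g ∈ commutator G :=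
      mem_commutator_map e.symm.toMonoidHom (by rw [hA]; exact hg)
    refine ⟨⟨e.symm g, hgc⟩, ?_⟩
    apply Subtype.ext
    show e.symm g * e.symm dtrans * (e.symm g)⁻¹ = x
    rw [← map_mul, ← map_inv, ← map_mul, hg', MulEquiv.symm_apply_apply]

end S5

end Cfsg.Agent.Lib.Helper44
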