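import Mathlib
import Cfsg.Agent.Lib.Helper44.InvForms

/-!
# Involutions of `Sp_{2m}(q)`, `q` even (helper44)

* `card_inv_classes_abs`: abstract count of involution classes from invariants `rk`, `alt`;
* `sympB_eq_polar`: in characteristic two the symplectic form is the polar form of `Σ x_i y_i`;
* `IsAltSp`, `sp_inv_data`, `sp_isConj_iff`: classification of involutions of `Sp_{2m}` (all `m`);
* `exists_sp_of_orth`: an involution of `O⁺_{2m}` as an element of `Sp_{2m}`.
-/

set_option autoImplicit false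

namespace Cfsg.Agent.Lib.Helper44

open Module QuadraticMap Cfsg.Agent.Lib.Helper18 Cfsg.Agent.Lib.Helper51

section Abs

theorem orderOf_eq_two_iff' {G : Type*} [Group G] (t : G) :
    orderOf t = 2 ↔ (t * t = 1 ∧ t ≠ 1) := by
  constructor
  · intro h
    refine ⟨by rw [← pow_two, ← h, pow_orderOf_eq_one], ?_⟩
    intro h1
    rw [h1, orderOf_one] at h
    omega
  · rintro ⟨h1, h3⟩
    exact orderOf_eq_prime (by rw [pow_two, h1]) h3

/-- the number of classes of involutions of a group whose involutions are classified by a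
rank `rk` (between 1 and `m`) and a type `alt` (only for even ranks up to `2 * mA`) -/
theorem card_inv_classes_abs {G : Type*} [Group G] (rk : G → ℕ) (alt : G → Prop) (m mA : ℕ)
    (hrk1 : rk 1 = 0) (hpos : ∀ t : G, t ≠ 1 → 0 < rk t)
    (hconj : ∀ t s : G, t * t = 1 → s * s = 1 → (IsConj t s ↔ rk t = rk s ∧ (alt t ↔ alt s)))
    (hle : ∀ t : G, t * t = 1 → rk t ≤ m)
    (heven : ∀ t : G, t * t = 1 → alt t → Even (rk t) ∧ rk t ≤ 2 * mA)
    (hNA : ∀ l, 0 < l → l ≤ m → ∃ t : G, t * t = 1 ∧ rk t = l ∧ ¬ alt t)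
    (hAL : ∀ j, 0 < j → j ≤ mA → ∃ t : G, t * t = 1 ∧ rk t = 2 * j ∧ alt t) :
    Nat.card {C : ConjClasses G // ∃ g : G, ConjClasses.mk g = C ∧ orderOf g = 2} = m + mA := by
  choose repNA hNA1 hNA2 hNA3 using
    (fun i : Fin m => hNA (i.val + 1) (by omega) (by have := i.isLt; omega))
  choose repAL hAL1 hAL2 hAL3 using
    (fun j : Fin mA => hAL (j.val + 1) (by omega) (by have := j.isLt; omega))
  have hne : ∀ t : G, 0 < rk t → t ≠ 1 := by
    intro t h h1
    rw [h1, hrk1] at h
    exact lt_irrefl 0 h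
  have key := card_classes_of_reps (G := G) (I := Fin m ⊕ Fin mA)
    (fun g => orderOf g = 2) (Sum.elim repNA repAL) ?_ ?_ ?_
  · rw [key, Fintype.card_sum, Fintype.card_fin, Fintype.card_fin]
  · rintro (i | j)
    · rw [Sum.elim_inl, orderOf_eq_two_iff']
      exact ⟨hNA1 i, hne _ (by rw [hNA2]; omega)⟩
    · rw [Sum.elim_inr, orderOf_eq_two_iff']
      exact ⟨hAL1 j, hne _ (by rw [hAL2]; omega)⟩
  · rintro (i | j) (i' | j') hc
    · rw [Sum.elim_inl, Sum.elim_inl] at hc
      have := ((hconj _ _ (hNA1 i) (hNA1 i')).1 hc).1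
      rw [hNA2, hNA2] at this
      exact congrArg Sum.inl (Fin.ext (by omega))
    · rw [Sum.elim_inl, Sum.elim_inr] at hc
      exact absurd (((hconj _ _ (hNA1 i) (hAL1 j')).1 hc).2.2 (hAL3 j')) (hNA3 i)
    · rw [Sum.elim_inr, Sum.elim_inl] at hc
      exact absurd (((hconj _ _ (hAL1 j) (hNA1 i')).1 hc).2.1 (hAL3 j)) (hNA3 i')
    · rw [Sum.elim_inr, Sum.elim_inr] at hc
      have := ((hconj _ _ (hAL1 j) (hAL1 j')).1 hc).1
      rw [hAL2, hAL2] at this
      exact congrArg Sum.inr (Fin.ext (by omega))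
  · intro g hg
    rw [orderOf_eq_two_iff'] at hg
    obtain ⟨hg1, hg2⟩ := hg
    have hpos' := hpos g hg2
    have hle' := hle g hg1
    by_cases halt : alt g
    · obtain ⟨⟨r, hr⟩, hb⟩ := heven g hg1 halt
      have hr1 : r - 1 < mA := by omega
      refine ⟨Sum.inr ⟨r - 1, hr1⟩, ?_⟩
      rw [Sum.elim_inr, hconj g _ hg1 (hAL1 _)]
      refine ⟨?_, fun _ => hAL3 _, fun _ => halt⟩
      rw [hAL2]
      show _ = 2 * (r - 1 + 1)
      omega
    · have hl1 : rk g - 1 < m := by omega
      refine ⟨Sum.inl ⟨rk g - 1, hl1⟩, ?_⟩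
      rw [Sum.elim_inl, hconj g _ hg1 (hNA1 _)]
      refine ⟨?_, fun h => absurd h halt, fun h => absurd h (hNA3 _)⟩
      rw [hNA2]
      show _ = rk g - 1 + 1
      omega

end Abs

section Sp

variable {F : Type*} [Field F] {m : ℕ}

theorem sympB_eq_polar (h2 : (2 : F) = 0) (x y : Fin m ⊕ Fin m → F) :
    sympB m x y = polar (QPlus m F) x y := by
  rw [sympB_apply, polar_QPlus]
  simp only [Matrix.J, dotProduct, Matrix.mulVec, Fintype.sum_sum_type, Matrix.fromBlocks_apply₁₁,
    Matrix.fromBlocks_apply₁₂, Matrix.fromBlocks_apply₂₁, Matrix.fromBlocks_apply₂₂,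
    Matrix.zero_apply, Matrix.neg_apply, Matrix.one_apply, zero_mul, Finset.sum_const_zero, zero_add,
    add_zero, neg_mul, ite_mul, one_mul, Finset.sum_neg_distrib, Finset.sum_ite_eq,
    Finset.mem_univ, if_true]
  have hneg : ∀ z : F, -z = z := fun z => by linear_combination (-z) * h2
  simp only [hneg]
  rw [← Finset.sum_add_distrib]
  exact Finset.sum_congr rfl (fun i _ => by ring)

/-- the matrix of a symplectic group element -/
abbrev smat (a : ↥(Matrix.symplecticGroup (Fin m) F)) : Matrix (Fin m ⊕ Fin m) (Fin m ⊕ Fin m) F :=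
  (a : Matrix (Fin m ⊕ Fin m) (Fin m ⊕ Fin m) F)

/-- `f (x, a x) = 0` for all `x` -/
def IsAltSp (a : ↥(Matrix.symplecticGroup (Fin m) F)) : Prop :=
  ∀ x : Fin m ⊕ Fin m → F, sympB m x ((smat a - 1).mulVecLin x) = 0

theorem smat_mul_self (a : ↥(Matrix.symplecticGroup (Fin m) F)) (ha : a * a = 1) :
    smat a * smat a = 1 := by
  have := congrArg smat ha
  simpa [smat] using this

theorem sp_inv_data (h2 : (2 : F) = 0) (a : ↥(Matrix.symplecticGroup (Fin m) F))
    (ha : a * a = 1) :
    (∀ x, (smat a - 1).mulVecLin ((smat a - 1).mulVecLin x) = 0) ∧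
    (∀ x y, sympB m ((smat a - 1).mulVecLin x) y = sympB m x ((smat a - 1).mulVecLin y)) := by
  have hAA := smat_mul_self a ha
  have hAAv : ∀ y : Fin m ⊕ Fin m → F, (smat a).mulVec ((smat a).mulVec y) = y := by
    intro y
    rw [Matrix.mulVec_mulVec, hAA, Matrix.one_mulVec]
  have hNv : ∀ x : Fin m ⊕ Fin m → F, (smat a - 1).mulVecLin x = (smat a).mulVec x - x := by
    intro x
    rw [Matrix.mulVecLin_apply, Matrix.sub_mulVec, Matrix.one_mulVec]
  have hiso : ∀ x y : Fin m ⊕ Fin m → F,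
      sympB m ((smat a).mulVec x) ((smat a).mulVec y) = sympB m x y := by
    intro x y
    have := symplectic_isometry m (smat a) a.2 x y
    simpa [Matrix.toLin'_apply] using this
  have hvv : ∀ y : Fin m ⊕ Fin m → F, y + y = 0 := by
    intro y
    rw [← two_smul F y, h2, zero_smul]
  refine ⟨?_, ?_⟩
  · intro x
    rw [hNv, hNv, Matrix.mulVec_sub, hAAv]
    have : x - (smat a).mulVec x - ((smat a).mulVec x - x)
        = (x + x) - ((smat a).mulVec x + (smat a).mulVec x) := by abel
    rw [this, hvv, hvv, sub_zero]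
  · intro x y
    rw [hNv, hNv, map_sub, map_sub, LinearMap.sub_apply]
    congr 1
    rw [← hiso ((smat a).mulVec x) y, hAAv]

theorem sp_rank_of_isConj (a b : ↥(Matrix.symplecticGroup (Fin m) F)) (h : IsConj a b) :
    (smat a - 1).rank = (smat b - 1).rank := by
  obtain ⟨c, hc⟩ := isConj_iff.1 h
  have h1 : c * a = b * c := by rw [← hc]; group
  have h2 : smat c * smat a = smat b * smat c := congrArg smat h1
  have hcc : smat c * smat c⁻¹ = 1 := by
    have h0 : smat (c * c⁻¹) = 1 := by rw [mul_inv_cancel]; rfl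
    exact h0
  have hdet : IsUnit (smat c).det := Matrix.isUnit_det_of_right_inverse hcc
  have h3 : smat c * (smat a - 1) = (smat b - 1) * smat c := by
    rw [mul_sub, sub_mul, h2, mul_one, one_mul]
  rw [← Matrix.rank_mul_eq_right_of_isUnit_det _ _ hdet, h3,
    Matrix.rank_mul_eq_left_of_isUnit_det _ _ hdet]

theorem sp_alt_of_isConj (a b : ↥(Matrix.symplecticGroup (Fin m) F)) (h : IsConj a b)
    (halt : IsAltSp a) : IsAltSp b := by
  obtain ⟨c, hc⟩ := isConj_iff.1 h
  have h1 : c * a = b * c := by rw [← hc]; group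
  have h2 : smat c * smat a = smat b * smat c := congrArg smat h1
  have hcc : smat c * smat c⁻¹ = 1 := by
    have h0 : smat (c * c⁻¹) = 1 := by rw [mul_inv_cancel]; rfl
    exact h0
  have h3 : smat c * (smat a - 1) = (smat b - 1) * smat c := by
    rw [mul_sub, sub_mul, h2, mul_one, one_mul]
  have hiso : ∀ x y : Fin m ⊕ Fin m → F,
      sympB m ((smat c).mulVec x) ((smat c).mulVec y) = sympB m x y := by
    intro x y
    have := symplectic_isometry m (smat c) c.2 x y
    simpa [Matrix.toLin'_apply] using this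
  intro v
  have hv : v = (smat c).mulVec ((smat c⁻¹).mulVec v) := by
    rw [Matrix.mulVec_mulVec, hcc, Matrix.one_mulVec]
  have e : (smat b - 1).mulVecLin v
      = (smat c).mulVec ((smat a - 1).mulVecLin ((smat c⁻¹).mulVec v)) := by
    rw [Matrix.mulVecLin_apply, Matrix.mulVecLin_apply, Matrix.mulVec_mulVec, h3,
      ← Matrix.mulVec_mulVec, ← hv]
  have key : sympB m v ((smat b - 1).mulVecLin v)
      = sympB m ((smat c⁻¹).mulVec v) ((smat a - 1).mulVecLin ((smat c⁻¹).mulVec v)) := by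
    rw [e, ← hiso ((smat c⁻¹).mulVec v), ← hv]
  rw [key]
  exact halt _

theorem sp_isConj_iff [Fintype F] (h2 : (2 : F) = 0) (a b : ↥(Matrix.symplecticGroup (Fin m) F))
    (ha : a * a = 1) (hb : b * b = 1) :
    IsConj a b ↔ ((smat a - 1).rank = (smat b - 1).rank ∧ (IsAltSp a ↔ IsAltSp b)) := by
  constructor
  · intro h
    exact ⟨sp_rank_of_isConj a b h, sp_alt_of_isConj a b h, sp_alt_of_isConj b a h.symm⟩
  · rintro ⟨hrank, htype⟩
    have : CharP F 2 := (CharP.charP_iff_prime_eq_zero Nat.prime_two).2 (by exact_mod_cast h2)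
    have hsq : ∀ x : F, IsSquare x := fun x =>
      FiniteField.isSquare_of_char_two (ringChar.eq F 2) x
    obtain ⟨hN₁, hadj₁⟩ := sp_inv_data h2 a ha
    obtain ⟨hN₂, hadj₂⟩ := sp_inv_data h2 b hb
    obtain ⟨g, hg, hgN⟩ := Cfsg.Agent.S2166.conj_abstract hsq (sympB_isAlt m)
      (sympB_nondegenerate m) (smat a - 1).mulVecLin (smat b - 1).mulVecLin hN₁ hN₂ hadj₁ hadj₂
      hrank htype
    obtain ⟨hmem, -⟩ := TP_to_closure m hg
    have hgA : ∀ x, g ((smat a).mulVec x) = (smat b).mulVec (g x) := by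
      intro x
      have h := hgN x
      rw [Matrix.mulVecLin_apply, Matrix.mulVecLin_apply, Matrix.sub_mulVec, Matrix.sub_mulVec,
        Matrix.one_mulVec, Matrix.one_mulVec, map_sub] at h
      exact sub_left_injective h
    have hmat : LinearMap.toMatrix' g * smat a = smat b * LinearMap.toMatrix' g := by
      apply Matrix.toLin'.injective
      rw [Matrix.toLin'_mul, Matrix.toLin'_mul, Matrix.toLin'_toMatrix']
      apply LinearMap.ext
      intro x
      rw [LinearMap.comp_apply, LinearMap.comp_apply, Matrix.toLin'_apply, Matrix.toLin'_apply]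
      exact hgA x
    rw [isConj_iff]
    refine ⟨⟨LinearMap.toMatrix' g, hmem⟩, ?_⟩
    rw [mul_inv_eq_iff_eq_mul]
    apply Subtype.ext
    exact hmat

theorem sp_rank_le (h2 : (2 : F) = 0) (a : ↥(Matrix.symplecticGroup (Fin m) F))
    (ha : a * a = 1) : (smat a - 1).rank ≤ m := by
  obtain ⟨hN2, -⟩ := sp_inv_data h2 a ha
  have hle : LinearMap.range (smat a - 1).mulVecLin ≤ LinearMap.ker (smat a - 1).mulVecLin := by
    rintro _ ⟨x, rfl⟩
    exact hN2 x
  have h1 := Submodule.finrank_mono hle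
  have h3 := LinearMap.finrank_range_add_finrank_ker (smat a - 1).mulVecLin
  rw [Module.finrank_fintype_fun_eq_card, Fintype.card_sum, Fintype.card_fin] at h3
  have h4 : (smat a - 1).rank = finrank F (LinearMap.range (smat a - 1).mulVecLin) := rfl
  omega

theorem sp_even_of_alt (h2 : (2 : F) = 0) (a : ↥(Matrix.symplecticGroup (Fin m) F))
    (ha : a * a = 1) (halt : IsAltSp a) : Even (smat a - 1).rank := by
  have : CharP F 2 := (CharP.charP_iff_prime_eq_zero Nat.prime_two).2 (by exact_mod_cast h2)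
  obtain ⟨-, hadj⟩ := sp_inv_data h2 a ha
  exact Cfsg.Agent.S2166.even_of_alt (sympB_isAlt m) (sympB_nondegenerate m) _ hadj halt

theorem sp_rank_pos (a : ↥(Matrix.symplecticGroup (Fin m) F)) (ha : a ≠ 1) :
    0 < (smat a - 1).rank := by
  rw [Nat.pos_iff_ne_zero]
  intro h0
  apply ha
  apply Subtype.ext
  have h1 : finrank F (LinearMap.range (smat a - 1).mulVecLin) = 0 := h0
  have h3 : LinearMap.range (smat a - 1).mulVecLin = ⊥ := Submodule.finrank_eq_zero.1 h1
  have h4 : (smat a - 1).mulVecLin = 0 := LinearMap.range_eq_bot.1 h3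
  have h5 : smat a - 1 = 0 := by
    apply Matrix.toLin'.injective
    rw [Matrix.toLin'_apply', h4, map_zero]
  exact sub_eq_zero.1 h5

/-- an involution of `O⁺_{2m}` as an element of `Sp_{2m}` (characteristic two) -/
theorem exists_sp_of_orth (h2 : (2 : F) = 0) (t : ↥(Cfsg.isometryGroup F ⇑(QPlus m F)))
    (ht : t * t = 1) :
    ∃ a : ↥(Matrix.symplecticGroup (Fin m) F), smat a = imat (QPlus m F) t ∧ a * a = 1 ∧
      (IsAltSp a ↔ IsAltInv (QPlus m F) t) := by
  have hiso : ∀ x y : Fin m ⊕ Fin m → F,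
      sympB m (Matrix.toLin' (imat (QPlus m F) t) x) (Matrix.toLin' (imat (QPlus m F) t) y)
        = sympB m x y := by
    intro x y
    rw [sympB_eq_polar h2, sympB_eq_polar h2, Matrix.toLin'_apply, Matrix.toLin'_apply]
    exact isometry_polar (QPlus m F) t x y
  have hTP := isometry_mem_TP _ (sympB m) (sympB_isAlt m) (sympB_nondegenerate m) rfl
    (Matrix.toLin' (imat (QPlus m F) t)) hiso
  obtain ⟨hmem, -⟩ := TP_to_closure m hTP
  rw [LinearMap.toMatrix'_toLin'] at hmem
  refine ⟨⟨imat (QPlus m F) t, hmem⟩, rfl, ?_, ?_⟩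
  · apply Subtype.ext
    exact imat_mul_self (QPlus m F) t ht
  · obtain ⟨-, -, hform, -⟩ := inv_data (QPlus m F) h2 t ht
    unfold IsAltSp IsAltInv
    constructor
    · intro h v
      rw [← hform, polarBilin_apply_apply, ← sympB_eq_polar h2]
      exact h v
    · intro h x
      have := hform x
      rw [polarBilin_apply_apply, ← sympB_eq_polar h2] at this
      show sympB m x ((imat (QPlus m F) t - 1).mulVecLin x) = 0
      rw [this]
      exact h x

end Sp

end Cfsg.Agent.Lib.Helper44
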