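import Mathlib
import Cfsg.Agent.Lib.Helper44.SURegBase

/-!
# S2282 assembly, part A (helper44): transport of transvections and centres along elements of `H`
-/

set_option autoImplicit false
set_option linter.unusedSectionVars false
set_option linter.unusedVariables false

namespace Cfsg.Agent.Lib.Helper44.SUReg

open Matrix Cfsg.Agent.Lib.Helper7 Cfsg.Agent.Lib.Helper18 Cfsg.Agent.Lib.Helper93

section
variable {F : Type*} [Field F] [Fintype F] {q n m : ℕ}

theorem tin_map {H : Subgroup (GL (Fin n) F)}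
    (hH : H ≤ Cfsg.GU n F q ⊓ Cfsg.Geo.specialLinear (Fin n) F)
    {P : Matrix (Fin n) (Fin n) F} (hP : MIn H P) {v : Fin n → F} {c : F}
    (h : TIn q H v c) : TIn q H (P *ᵥ v) c :=
  MIn.conj hP h (conj_transvection P (hP.pres hH) v c)

/-- the matrix of the inverse -/
theorem min_inv {H : Subgroup (GL (Fin n) F)} {P : Matrix (Fin n) (Fin n) F} (hP : MIn H P) :
    ∃ Q : Matrix (Fin n) (Fin n) F, MIn H Q ∧ Q * P = 1 ∧ P * Q = 1 := by
  obtain ⟨t, ht, rfl⟩ := hP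
  refine ⟨((t⁻¹ : GL (Fin n) F) : Matrix (Fin n) (Fin n) F), ⟨t⁻¹, H.inv_mem ht, rfl⟩, ?_, ?_⟩
  · rw [← Units.val_mul, inv_mul_cancel, Units.val_one]
  · rw [← Units.val_mul, mul_inv_cancel, Units.val_one]

theorem tin_map_inv {H : Subgroup (GL (Fin n) F)}
    (hH : H ≤ Cfsg.GU n F q ⊓ Cfsg.Geo.specialLinear (Fin n) F)
    {P : Matrix (Fin n) (Fin n) F} (hP : MIn H P) {v : Fin n → F} {c : F}
    (h : TIn q H (P *ᵥ v) c) : TIn q H v c := by
  obtain ⟨Q, hQ, hQP, -⟩ := min_inv hP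
  have h1 := tin_map hH hQ h
  rwa [Matrix.mulVec_mulVec, hQP, Matrix.one_mulVec] at h1

theorem tin_map_iff {H : Subgroup (GL (Fin n) F)}
    (hH : H ≤ Cfsg.GU n F q ⊓ Cfsg.Geo.specialLinear (Fin n) F)
    {P : Matrix (Fin n) (Fin n) F} (hP : MIn H P) (v : Fin n → F) (c : F) :
    TIn q H (P *ᵥ v) c ↔ TIn q H v c :=
  ⟨tin_map_inv hH hP, tin_map hH hP⟩

theorem cen_map_inv {H : Subgroup (GL (Fin n) F)}
    (hH : H ≤ Cfsg.GU n F q ⊓ Cfsg.Geo.specialLinear (Fin n) F)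
    {P : Matrix (Fin n) (Fin n) F} (hP : MIn H P) {v : Fin n → F}
    (h : Cen q H (P *ᵥ v)) : Cen q H v := by
  obtain ⟨Q, hQ, hQP, -⟩ := min_inv hP
  have h1 := h.map hH hQ
  rwa [Matrix.mulVec_mulVec, hQP, Matrix.one_mulVec] at h1

theorem cen_of_tin {H : Subgroup (GL (Fin n) F)} {v : Fin n → F}
    (hv : Cfsg.hermForm n F q v v = 0) (h : ∀ c : F, c + c ^ q = 0 → TIn q H v c) : Cen q H v :=
  ⟨hv, h⟩

theorem cen_zero (hF : Fintype.card F = q ^ 2) (H : Subgroup (GL (Fin n) F)) :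
    Cen q H (0 : Fin n → F) := by
  refine ⟨hf_zero_left n 0, fun c _ => ?_⟩
  have h1 : Cfsg.unitaryTransvection n q (0 : Fin n → F) c = 1 := by
    apply Matrix.mulVec_injective
    funext x
    rw [unitaryTransvection_mulVec, smul_zero, add_zero, Matrix.one_mulVec]
  rw [h1]
  exact MIn.one H

theorem cen_neg (hF : Fintype.card F = q ^ 2) {H : Subgroup (GL (Fin n) F)} {v : Fin n → F}
    (h : Cen q H v) : Cen q H (-v) := by
  have h1 := h.smul hF (-1)
  rwa [neg_one_smul] at h1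

end

end Cfsg.Agent.Lib.Helper44.SUReg
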