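import Mathlib
import Cfsg.Agent.Lib.Helper44.SURegAsmA
import Cfsg.Agent.Lib.Helper29.SURegLEMK
import Cfsg.Agent.Lib.Helper65.SURegLEMA
import Cfsg.Agent.Lib.Helper18.SURegLEMT
import Cfsg.Agent.Lib.Helper75.SURegLEMB
import Cfsg.Agent.Lib.Helper92.SURegFULL

/-!
# S2282 assembly, part B (helper44): from the three conjugates to all transvection centres
-/

set_option autoImplicit false
set_option linter.unusedSectionVars false
set_option linter.unusedVariables false

namespace Cfsg.Agent.Lib.Helper44.SUReg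

open Matrix Cfsg.Agent.Lib.Helper7 Cfsg.Agent.Lib.Helper18 Cfsg.Agent.Lib.Helper93

section
variable {F : Type*} [Field F] [Fintype F] {q n : ℕ}

/-- the data: a Witt frame of size `l + 2`, the regular unipotent `U` and its opposite `Um` -/
structure Dat (q n l : ℕ) (H : Subgroup (GL (Fin n) F)) (e f : ℕ → Fin n → F) (d : Fin n → F)
    (U Um : Matrix (Fin n) (Fin n) F) (a b ε : F) : Prop where
  fr : WFr q n (l + 2) e f d
  hH : H ≤ Cfsg.GU n F q ⊓ Cfsg.Geo.specialLinear (Fin n) F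
  hU : MIn H U
  hUm : MIn H Um
  ha : a ≠ 0
  hb : b + b ^ q + a ^ (q + 1) = 0
  hε : ε ^ (q + 1) = 1
  u0 : U *ᵥ e 0 = e 0
  u1 : ∀ k, k + 1 < l + 2 → U *ᵥ e (k + 1) = e (k + 1) + e k
  u2 : U *ᵥ d = d + a • e (l + 1)
  u3 : U *ᵥ f (l + 1) = f (l + 1) - a ^ q • d + b • e (l + 1)
  u4 : ∀ k, k + 1 < l + 2 → U *ᵥ (f k + f (k + 1)) = f k
  m1 : ∀ k, k + 1 < l + 2 → Um *ᵥ f (k + 1) = f (k + 1) + f k
  m3 : Um *ᵥ e (l + 1) = e (l + 1) - (ε * a ^ q) • d + b • f (l + 1)
  m4 : ∀ k, k + 1 < l + 2 → Um *ᵥ (e k + e (k + 1)) = e k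

variable {l : ℕ} {H : Subgroup (GL (Fin n) F)} {e f : ℕ → Fin n → F} {d : Fin n → F}
  {U Um : Matrix (Fin n) (Fin n) F} {a b ε : F}

theorem Dat.chain_e (D : Dat q n l H e f d U Um a b ε) (c : F) (k : ℕ) (hk : k + 1 < l + 2) :
    TIn q H (e (k + 1)) c ↔ TIn q H (e k) c := by
  rw [← tin_map_iff D.hH D.hU (e (k + 1)) c, D.u1 k hk, add_comm (e (k + 1)) (e k),
    ← tin_map_iff D.hH D.hUm (e k + e (k + 1)) c, D.m4 k hk]

theorem Dat.chain_e0 (D : Dat q n l H e f d U Um a b ε) (c : F) :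
    ∀ k, k < l + 2 → (TIn q H (e k) c ↔ TIn q H (e 0) c) := by
  intro k
  induction k with
  | zero => intro _; exact Iff.rfl
  | succ k ih =>
    intro hk
    exact (D.chain_e c k hk).trans (ih (by omega))

theorem Dat.chain_f (D : Dat q n l H e f d U Um a b ε) (c : F) (k : ℕ) (hk : k + 1 < l + 2) :
    TIn q H (f (k + 1)) c ↔ TIn q H (f k) c := by
  rw [← tin_map_iff D.hH D.hUm (f (k + 1)) c, D.m1 k hk, add_comm (f (k + 1)) (f k),
    ← tin_map_iff D.hH D.hU (f k + f (k + 1)) c, D.u4 k hk]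

theorem Dat.chain_f0 (D : Dat q n l H e f d U Um a b ε) (c : F) :
    ∀ k, k < l + 2 → (TIn q H (f k) c ↔ TIn q H (f 0) c) := by
  intro k
  induction k with
  | zero => intro _; exact Iff.rfl
  | succ k ih =>
    intro hk
    exact (D.chain_f c k hk).trans (ih (by omega))

/-- the image of `p⁻ = Um e_{l+1}` under `U` -/
theorem Dat.U_pm (D : Dat q n l H e f d U Um a b ε) :
    U *ᵥ (e (l + 1) - (ε * a ^ q) • d + b • f (l + 1)) =
      e l + ((1 - ε * a ^ (q + 1) + b ^ 2) • e (l + 1) - (a ^ q * (ε + b)) • d + b • f (l + 1)) := by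
  rw [Matrix.mulVec_add, Matrix.mulVec_sub, Matrix.mulVec_smul, Matrix.mulVec_smul, D.u1 l (by omega),
    D.u2, D.u3]
  have h : a ^ (q + 1) = a ^ q * a := pow_succ a q
  rw [h]
  module

/-- all `e k` are centres -/
theorem Dat.cen_e (hF : Fintype.card F = q ^ 2) (D : Dat q n l H e f d U Um a b ε)
    (c ρ : F) (hc0 : c ≠ 0) (hc : c + c ^ q = 0)
    (hρ : ((2 : F) = 0 ∧ ρ = (b ^ (q + 1)) ^ 2 * a ^ (q + 1) * c ^ 3) ∨
        ((2 : F) ≠ 0 ∧ ρ = 2 * (b ^ (q + 1)) ^ 2 * c ^ 4))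
    (hgen : ∀ A : AddSubgroup F, c ∈ A → (∀ x ∈ A, ρ * x ∈ A) →
        ∀ x : F, x + x ^ q = 0 → x ∈ A)
    (ht : TIn q H (e 0) c) : ∀ k, k < l + 2 → Cen q H (e k) := by
  have hK := Cfsg.Agent.Lib.Helper29.SUReg.su_lemK hF D.hH
  have hl : l < l + 2 := by omega
  have hl1 : l + 1 < l + 2 := by omega
  have hfull : Cen q H (e l) := by
    refine Cfsg.Agent.Lib.Helper92.SUReg.su_full hF D.hH hK D.fr (by omega) a b c ε ρ D.ha D.hb D.hε
      hc0 hc hρ hgen
      ((D.chain_e0 c l hl).mpr ht) ?_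
    intro c' hc' hT
    have hT' : TIn q H (e l) c' := hT
    have h1 : TIn q H (e (l + 1)) c' := (D.chain_e c' l hl1).mpr hT'
    have h2 : TIn q H (e l + e (l + 1)) c' := by
      have h := tin_map D.hH D.hU h1
      rwa [D.u1 l hl1, add_comm (e (l + 1)) (e l)] at h
    have h3 : TIn q H (e (l + 1) - (ε * a ^ q) • d + b • f (l + 1)) c' := by
      have h := tin_map D.hH D.hUm h1
      rwa [D.m3] at h
    have h4 := tin_map D.hH D.hU h3
    rw [D.U_pm] at h4
    exact ⟨h1, h2, h3, h4⟩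
  intro k hk
  refine ⟨D.fr.ee k k hk hk, fun c' hc' => ?_⟩
  exact (D.chain_e0 c' k hk).mpr ((D.chain_e0 c' l hl).mp (hfull.2 c' hc'))

/-- `p⁻ = Um e_{l+1}` is a centre -/
theorem Dat.cen_pm (D : Dat q n l H e f d U Um a b ε) (he : Cen q H (e (l + 1))) :
    Cen q H (e (l + 1) - (ε * a ^ q) • d + b • f (l + 1)) := by
  have h := he.map D.hH D.hUm
  rwa [D.m3] at h

/-- downward induction: `U Um e_{i+1} = e_i + s p₁'` -/
theorem Dat.UUm_e (D : Dat q n l H e f d U Um a b ε) :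
    ∀ j i, i + j = l → ∃ s : F, s ≠ 0 ∧ U *ᵥ (Um *ᵥ e (i + 1)) =
      e i + s • ((1 - ε * a ^ (q + 1) + b ^ 2) • e (l + 1) - (a ^ q * (ε + b)) • d +
        b • f (l + 1)) := by
  intro j
  induction j with
  | zero =>
    intro i hi
    have hi' : i = l := by omega
    subst hi'
    refine ⟨1, one_ne_zero, ?_⟩
    rw [D.m3, D.U_pm, one_smul]
  | succ j ih =>
    intro i hi
    obtain ⟨s, hs0, hs⟩ := ih (i + 1) (by omega)
    refine ⟨-s, neg_ne_zero.mpr hs0, ?_⟩
    have h1 : Um *ᵥ e (i + 1) = e (i + 1) - Um *ᵥ e (i + 1 + 1) := by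
      have h := D.m4 (i + 1) (by omega)
      rw [Matrix.mulVec_add] at h
      exact eq_sub_of_add_eq h
    rw [h1, Matrix.mulVec_sub, hs, D.u1 i (by omega)]
    module

/-- `p₁'` is a centre -/
theorem Dat.cen_p1 (hF : Fintype.card F = q ^ 2) (D : Dat q n l H e f d U Um a b ε)
    (he : Cen q H (e 0)) :
    Cen q H ((1 - ε * a ^ (q + 1) + b ^ 2) • e (l + 1) - (a ^ q * (ε + b)) • d +
        b • f (l + 1)) := by
  obtain ⟨s, hs0, hs⟩ := D.UUm_e l 0 (by omega)
  have h1 : Um *ᵥ e 0 = e 0 - Um *ᵥ e (0 + 1) := by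
    have h := D.m4 0 (by omega)
    rw [Matrix.mulVec_add] at h
    exact eq_sub_of_add_eq h
  have h2 := (he.map D.hH D.hUm).map D.hH D.hU
  rw [h1, Matrix.mulVec_sub, hs, D.u0] at h2
  have h3 := h2.smul hF (-s)⁻¹
  have e1 : (-s)⁻¹ • (e 0 - (e 0 + s • ((1 - ε * a ^ (q + 1) + b ^ 2) • e (l + 1) -
      (a ^ q * (ε + b)) • d + b • f (l + 1)))) =
      (1 - ε * a ^ (q + 1) + b ^ 2) • e (l + 1) - (a ^ q * (ε + b)) • d + b • f (l + 1) := by
    have e2 : e 0 - (e 0 + s • ((1 - ε * a ^ (q + 1) + b ^ 2) • e (l + 1) -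
        (a ^ q * (ε + b)) • d + b • f (l + 1))) =
        (-s) • ((1 - ε * a ^ (q + 1) + b ^ 2) • e (l + 1) - (a ^ q * (ε + b)) • d +
          b • f (l + 1)) := by module
    rw [e2, smul_smul, inv_mul_cancel₀ (neg_ne_zero.mpr hs0), one_smul]
  rwa [e1] at h3

theorem Dat.b_ne (hF : Fintype.card F = q ^ 2) (D : Dat q n l H e f d U Um a b ε) : b ≠ 0 := by
  intro hb0
  have h := D.hb
  rw [hb0, zero_pow (herm_q_ne_zero hF), add_zero, zero_add] at h
  exact D.ha (pow_eq_zero_iff (by omega) |>.mp h)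

theorem Dat.eps_ne (D : Dat q n l H e f d U Um a b ε) : ε ≠ 0 := by
  intro h0
  have h := D.hε
  rw [h0, zero_pow (by omega)] at h
  exact zero_ne_one h

/-- all isotropic vectors of `⟨e_{l+1}, d, f_{l+1}⟩` are centres -/
theorem Dat.cen_W0 (hF : Fintype.card F = q ^ 2) (D : Dat q n l H e f d U Um a b ε)
    (he : Cen q H (e (l + 1)))
    (hp1 : Cen q H ((1 - ε * a ^ (q + 1) + b ^ 2) • e (l + 1) - (a ^ q * (ε + b)) • d +
        b • f (l + 1))) :
    ∀ α δ γ : F, Cfsg.hermForm n F q (α • e (l + 1) + δ • d + γ • f (l + 1))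
        (α • e (l + 1) + δ • d + γ • f (l + 1)) = 0 →
      Cen q H (α • e (l + 1) + δ • d + γ • f (l + 1)) := by
  have hl1 : l + 1 < l + 2 := by omega
  have hb0 := D.b_ne hF
  have hε0 := D.eps_ne
  have hbq0 : b ^ q ≠ 0 := pow_ne_zero _ hb0
  have hEE : Cfsg.hermForm n F q (e (l + 1)) (e (l + 1)) = 0 := D.fr.ee _ _ hl1 hl1
  have hFF : Cfsg.hermForm n F q (f (l + 1)) (f (l + 1)) = 0 := D.fr.ff _ _ hl1 hl1
  have hEF : Cfsg.hermForm n F q (e (l + 1)) (f (l + 1)) = 1 := by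
    have h := D.fr.ef (l + 1) (l + 1) hl1 hl1
    rwa [if_pos rfl] at h
  have hFE : Cfsg.hermForm n F q (f (l + 1)) (e (l + 1)) = 1 := by
    have h := D.fr.fe hF (l + 1) (l + 1) hl1 hl1
    rwa [if_pos rfl] at h
  have hdE : Cfsg.hermForm n F q d (e (l + 1)) = 0 := D.fr.de _ hl1
  have hdF : Cfsg.hermForm n F q d (f (l + 1)) = 0 := D.fr.df _ hl1
  have hEd : Cfsg.hermForm n F q (e (l + 1)) d = 0 := D.fr.ed hF _ hl1
  have hFd : Cfsg.hermForm n F q (f (l + 1)) d = 0 := D.fr.fd hF _ hl1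
  have hdd := D.fr.dd
  have hpm := D.cen_pm he
  obtain ⟨pm, hpmdef⟩ : ∃ pm : Fin n → F,
      pm = e (l + 1) - (ε * a ^ q) • d + b • f (l + 1) := ⟨_, rfl⟩
  rw [← hpmdef] at hpm
  have hEpm : Cfsg.hermForm n F q (e (l + 1)) pm = b ^ q := by
    rw [hpmdef]
    simp only [hf_sub_right hF, hf_add_right hF, hf_smul_right, hEE, hEd, hEF]
    ring
  have hdpm : Cfsg.hermForm n F q d pm = -(ε ^ q * a) := by
    rw [hpmdef]
    simp only [hf_sub_right hF, hf_add_right hF, hf_smul_right, hdE, hdd, hdF, mul_pow,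
      herm_pow_pow hF]
    ring
  -- the frame `(E, ft, dt)`
  obtain ⟨s₀, hs₀⟩ : ∃ s₀ : F, s₀ = a * ε ^ q / b ^ q := ⟨_, rfl⟩
  obtain ⟨ft, hft⟩ : ∃ ft : Fin n → F, ft = b⁻¹ • pm := ⟨_, rfl⟩
  obtain ⟨dt, hdt⟩ : ∃ dt : Fin n → F, dt = d + s₀ • e (l + 1) := ⟨_, rfl⟩
  have hcft : Cen q H ft := by rw [hft]; exact hpm.smul hF b⁻¹
  have hEft : Cfsg.hermForm n F q (e (l + 1)) ft = 1 := by
    rw [hft, hf_smul_right, hEpm, inv_pow, inv_mul_cancel₀ hbq0]
  have hdtE : Cfsg.hermForm n F q dt (e (l + 1)) = 0 := by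
    rw [hdt, hf_add_left, hf_smul_left, hdE, hEE, mul_zero, add_zero]
  have hdtft : Cfsg.hermForm n F q dt ft = 0 := by
    rw [hdt, hft, hf_add_left, hf_smul_left, hf_smul_right, hf_smul_right, hdpm, hEpm, hs₀,
      inv_pow]
    field_simp
    ring
  have hdtdt : Cfsg.hermForm n F q dt dt = 1 := by
    rw [hdt]
    simp only [hf_add_left, hf_add_right hF, hf_smul_left, hf_smul_right, hdd, hdE, hEd, hEE]
    ring
  have hpmexp : b • ft = pm := by rw [hft, smul_smul, mul_inv_cancel₀ hb0, one_smul]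
  have hcp : Cen q H ((-(ε * a ^ (q + 1)) + b ^ 2 + a ^ q * b * s₀) • e (l + 1) +
      (-(a ^ q * b)) • dt + b • ft) := by
    have e1 : (-(ε * a ^ (q + 1)) + b ^ 2 + a ^ q * b * s₀) • e (l + 1) +
        (-(a ^ q * b)) • dt + b • ft =
        (1 - ε * a ^ (q + 1) + b ^ 2) • e (l + 1) - (a ^ q * (ε + b)) • d + b • f (l + 1) := by
      rw [hpmexp, hdt, hpmdef]
      module
    rw [e1]
    exact hp1
  have hA1 := Cfsg.Agent.Lib.Helper65.SUReg.su_lemA hF D.hH hEE hcft.1 hEft hdtE hdtft hdtdt he hcft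
    (neg_ne_zero.mpr (mul_ne_zero (pow_ne_zero _ D.ha) hb0)) hcp
  -- `f_{l+1}` is a centre
  have hcF : Cen q H (f (l + 1)) := by
    have e1 : (-b⁻¹ - ε * a ^ q * b⁻¹ * s₀) • e (l + 1) + (ε * a ^ q * b⁻¹) • dt + (1 : F) • ft =
        f (l + 1) := by
      have e2 : ft = b⁻¹ • e (l + 1) - (b⁻¹ * (ε * a ^ q)) • d + f (l + 1) := by
        rw [hft, hpmdef, smul_add, smul_sub, smul_smul, smul_smul, inv_mul_cancel₀ hb0, one_smul]
      rw [e2, hdt]
      module
    have h := hA1 (-b⁻¹ - ε * a ^ q * b⁻¹ * s₀) (ε * a ^ q * b⁻¹) 1 (by rw [e1]; exact hFF)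
    rwa [e1] at h
  -- second application, standard frame
  have hcp2 : Cen q H ((1 : F) • e (l + 1) + (-(ε * a ^ q)) • d + b • f (l + 1)) := by
    have e1 : (1 : F) • e (l + 1) + (-(ε * a ^ q)) • d + b • f (l + 1) = pm := by
      rw [hpmdef]
      module
    rw [e1]
    exact hpm
  exact Cfsg.Agent.Lib.Helper65.SUReg.su_lemA hF D.hH hEE hFF hEF hdE hdF hdd he hcF
    (neg_ne_zero.mpr (mul_ne_zero hε0 (pow_ne_zero _ D.ha))) hcp2

theorem Dat.cen_f (D : Dat q n l H e f d U Um a b ε) (hf : Cen q H (f (l + 1))) :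
    ∀ k, k < l + 2 → Cen q H (f k) := by
  intro k hk
  refine ⟨D.fr.ff k k hk hk, fun c hc => ?_⟩
  exact (D.chain_f0 c k hk).mpr ((D.chain_f0 c (l + 1) (by omega)).mp (hf.2 c hc))

/-- downward induction over the hyperbolic planes -/
theorem Dat.cen_Wc (hF : Fintype.card F = q ^ 2) (hn : n = 2 * (l + 2) + 1)
    (D : Dat q n l H e f d U Um a b ε)
    (hce : ∀ k, k < l + 2 → Cen q H (e k)) (hcf : ∀ k, k < l + 2 → Cen q H (f k))
    (hW0 : ∀ α δ γ : F, Cfsg.hermForm n F q (α • e (l + 1) + δ • d + γ • f (l + 1))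
        (α • e (l + 1) + δ • d + γ • f (l + 1)) = 0 →
      Cen q H (α • e (l + 1) + δ • d + γ • f (l + 1))) :
    ∀ i j, j + i = l + 1 → ∀ v ∈ Wc q e f j, Cfsg.hermForm n F q v v = 0 → Cen q H v := by
  have hl1 : l + 1 < l + 2 := by omega
  have hEE : Cfsg.hermForm n F q (e (l + 1)) (e (l + 1)) = 0 := D.fr.ee _ _ hl1 hl1
  have hFF : Cfsg.hermForm n F q (f (l + 1)) (f (l + 1)) = 0 := D.fr.ff _ _ hl1 hl1
  have hEF : Cfsg.hermForm n F q (e (l + 1)) (f (l + 1)) = 1 := by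
    have h := D.fr.ef (l + 1) (l + 1) hl1 hl1
    rwa [if_pos rfl] at h
  have hFE : Cfsg.hermForm n F q (f (l + 1)) (e (l + 1)) = 1 := by
    have h := D.fr.fe hF (l + 1) (l + 1) hl1 hl1
    rwa [if_pos rfl] at h
  have hdE : Cfsg.hermForm n F q d (e (l + 1)) = 0 := D.fr.de _ hl1
  have hdF : Cfsg.hermForm n F q d (f (l + 1)) = 0 := D.fr.df _ hl1
  have hEd : Cfsg.hermForm n F q (e (l + 1)) d = 0 := D.fr.ed hF _ hl1
  have hFd : Cfsg.hermForm n F q (f (l + 1)) d = 0 := D.fr.fd hF _ hl1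
  have hdd := D.fr.dd
  intro i
  induction i with
  | zero =>
    intro j hj v hv hvv
    have hj' : j = l + 1 := by omega
    subst hj'
    obtain ⟨r, hr⟩ : ∃ r : Fin n → F, r = v - (Cfsg.hermForm n F q v (f (l + 1)) • e (l + 1) +
        Cfsg.hermForm n F q v d • d + Cfsg.hermForm n F q v (e (l + 1)) • f (l + 1)) := ⟨_, rfl⟩
    have hr0 : r = 0 := by
      apply D.fr.cpl r
      · intro k hk
        by_cases hkl : k = l + 1
        · subst hkl
          constructor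
          · rw [hr]
            simp only [hf_sub_left, hf_add_left, hf_smul_left, hEE, hdE, hFE]
            ring
          · rw [hr]
            simp only [hf_sub_left, hf_add_left, hf_smul_left, hEF, hdF, hFF]
            ring
        · have hk' : k < l + 1 := by omega
          have h1 : Cfsg.hermForm n F q (e (l + 1)) (e k) = 0 := D.fr.ee _ _ hl1 hk
          have h2 : Cfsg.hermForm n F q (f (l + 1)) (e k) = 0 := by
            have h := D.fr.fe hF (l + 1) k hl1 hk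
            rwa [if_neg (fun h' => hkl h'.symm)] at h
          have h3 : Cfsg.hermForm n F q (e (l + 1)) (f k) = 0 := by
            have h := D.fr.ef (l + 1) k hl1 hk
            rwa [if_neg (fun h' => hkl h'.symm)] at h
          have h4 : Cfsg.hermForm n F q (f (l + 1)) (f k) = 0 := D.fr.ff _ _ hl1 hk
          constructor
          · rw [hr]
            simp only [hf_sub_left, hf_add_left, hf_smul_left, h1, h2, D.fr.de k hk, (hv k hk').1]
            ring
          · rw [hr]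
            simp only [hf_sub_left, hf_add_left, hf_smul_left, h3, h4, D.fr.df k hk, (hv k hk').2]
            ring
      · rw [hr]
        simp only [hf_sub_left, hf_add_left, hf_smul_left, hEd, hdd, hFd]
        ring
    have hv' : v = Cfsg.hermForm n F q v (f (l + 1)) • e (l + 1) +
        Cfsg.hermForm n F q v d • d + Cfsg.hermForm n F q v (e (l + 1)) • f (l + 1) := by
      rw [hr0] at hr
      exact (sub_eq_zero.mp hr.symm)
    rw [hv']
    apply hW0
    rw [← hv']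
    exact hvv
  | succ i ih =>
    intro j hj v hv hvv
    have hjl : j + 1 < l + 2 := by omega
    have hj2 : j < l + 2 := by omega
    have hP := ih (j + 1) (by omega)
    have hgg : Cfsg.hermForm n F q (e j) (e j) = 0 := D.fr.ee _ _ hj2 hj2
    have hg'g' : Cfsg.hermForm n F q (f j) (f j) = 0 := D.fr.ff _ _ hj2 hj2
    have hgg' : Cfsg.hermForm n F q (e j) (f j) = 1 := by
      have h := D.fr.ef j j hj2 hj2
      rwa [if_pos rfl] at h
    have hg'g : Cfsg.hermForm n F q (f j) (e j) = 1 := by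
      have h := D.fr.fe hF j j hj2 hj2
      rwa [if_pos rfl] at h
    obtain ⟨w, hwdef⟩ : ∃ w : Fin n → F, w = v - Cfsg.hermForm n F q v (f j) • e j -
        Cfsg.hermForm n F q v (e j) • f j := ⟨_, rfl⟩
    have hw : w ∈ Wc q e f (j + 1) := by
      intro k hk
      by_cases hkj : k = j
      · subst hkj
        constructor
        · rw [hwdef]
          simp only [hf_sub_left, hf_smul_left, hgg, hg'g]
          ring
        · rw [hwdef]
          simp only [hf_sub_left, hf_smul_left, hgg', hg'g']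
          ring
      · have hk' : k < j := by omega
        have hk2 : k < l + 2 := by omega
        have h1 : Cfsg.hermForm n F q (e j) (e k) = 0 := D.fr.ee _ _ hj2 hk2
        have h2 : Cfsg.hermForm n F q (f j) (e k) = 0 := by
          have h := D.fr.fe hF j k hj2 hk2
          rwa [if_neg (fun h' => hkj h'.symm)] at h
        have h3 : Cfsg.hermForm n F q (e j) (f k) = 0 := by
          have h := D.fr.ef j k hj2 hk2
          rwa [if_neg (fun h' => hkj h'.symm)] at h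
        have h4 : Cfsg.hermForm n F q (f j) (f k) = 0 := D.fr.ff _ _ hj2 hk2
        constructor
        · rw [hwdef]
          simp only [hf_sub_left, hf_smul_left, h1, h2, (hv k hk').1]
          ring
        · rw [hwdef]
          simp only [hf_sub_left, hf_smul_left, h3, h4, (hv k hk').2]
          ring
    have hv' : v = w + Cfsg.hermForm n F q v (f j) • e j + Cfsg.hermForm n F q v (e j) • f j := by
      rw [hwdef]
      abel
    -- the link vector
    have hw₁ : e (j + 1) ∈ Wc q e f (j + 1) := by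
      intro k hk
      have hk2 : k < l + 2 := by omega
      refine ⟨D.fr.ee _ _ hjl hk2, ?_⟩
      have h := D.fr.ef (j + 1) k hjl hk2
      rwa [if_neg (by omega)] at h
    have hw₁0 : e (j + 1) ≠ 0 := by
      intro h0
      have h := D.fr.ef (j + 1) (j + 1) hjl hjl
      rw [if_pos rfl, h0, hf_zero_left] at h
      exact zero_ne_one h
    have hlink : Cen q H (e j + e (j + 1)) := by
      have h := (hce (j + 1) hjl).map D.hH D.hU
      rwa [D.u1 j hjl, add_comm (e (j + 1)) (e j)] at h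
    have hT : ∀ w ∈ Wc q e f (j + 1), ∀ w' ∈ Wc q e f (j + 1), Cfsg.hermForm n F q w w = 0 →
        Cfsg.hermForm n F q w' w' = 0 → w ≠ 0 → w' ≠ 0 →
        ∃ A : Matrix (Fin n) (Fin n) F, MIn H A ∧ A *ᵥ w = w' ∧ A *ᵥ e j = e j ∧
          A *ᵥ f j = f j := by
      intro x hx x' hx' hxx hxx' hx0 hx0'
      obtain ⟨A, hA, hAx, hAfix⟩ :=
        Cfsg.Agent.Lib.Helper18.SUReg.su_lemT hF hn D.hH D.fr hjl hP x x' hx hx' hxx hxx' hx0 hx0'
      refine ⟨A, hA, hAx, hAfix (e j) ?_, hAfix (f j) ?_⟩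
      · intro y hy
        exact hf_eq_zero_symm hF n _ _ (hy j (Nat.lt_succ_self j)).1
      · intro y hy
        exact hf_eq_zero_symm hF n _ _ (hy j (Nat.lt_succ_self j)).2
    have hEW : e (l + 1) ∈ Wc q e f (j + 1) := by
      intro k hk
      have hk2 : k < l + 2 := by omega
      refine ⟨D.fr.ee _ _ hl1 hk2, ?_⟩
      have h := D.fr.ef (l + 1) k hl1 hk2
      rwa [if_neg (by omega)] at h
    have hFW : f (l + 1) ∈ Wc q e f (j + 1) := by
      intro k hk
      have hk2 : k < l + 2 := by omega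
      refine ⟨?_, D.fr.ff _ _ hl1 hk2⟩
      have h := D.fr.fe hF (l + 1) k hl1 hk2
      rwa [if_neg (by omega)] at h
    have hS : ∀ x ∈ Wc q e f (j + 1), Cfsg.hermForm n F q x x ≠ 0 →
        ∃ y ∈ Wc q e f (j + 1), Cfsg.hermForm n F q y y = 0 ∧ Cfsg.hermForm n F q y x ≠ 0 := by
      intro x hx hxx
      by_cases h1 : Cfsg.hermForm n F q (e (l + 1)) x = 0
      · by_cases h2 : Cfsg.hermForm n F q (f (l + 1)) x = 0
        · obtain ⟨l₀, hl₀⟩ := exists_trace_one hF
          have h1' : Cfsg.hermForm n F q x (e (l + 1)) = 0 := hf_eq_zero_symm hF n _ _ h1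
          have h2' : Cfsg.hermForm n F q x (f (l + 1)) = 0 := hf_eq_zero_symm hF n _ _ h2
          have hxq : Cfsg.hermForm n F q x x ^ q = Cfsg.hermForm n F q x x := hf_self_pow hF n x
          refine ⟨f (l + 1) + x + (-(Cfsg.hermForm n F q x x * l₀)) • e (l + 1),
            (Wc q e f (j + 1)).add_mem ((Wc q e f (j + 1)).add_mem hFW hx)
              ((Wc q e f (j + 1)).smul_mem _ hEW), ?_, ?_⟩
          · simp only [hf_add_left, hf_add_right hF, hf_smul_left, hf_smul_right, hFF, hEE, hEF,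
              hFE, h1, h2, h1', h2', herm_neg_pow hF, mul_pow, hxq]
            linear_combination (-(Cfsg.hermForm n F q x x)) * hl₀
          · simp only [hf_add_left, hf_smul_left, h1, h2]
            simpa using hxx
        · exact ⟨f (l + 1), hFW, hFF, h2⟩
      · exact ⟨e (l + 1), hEW, hEE, h1⟩
    have hres := Cfsg.Agent.Lib.Helper75.SUReg.su_lemB hF D.hH (Wc q e f (j + 1)) (e j) (f j) hgg hg'g' hgg'
      (fun x hx => (hx j (Nat.lt_succ_self j)).1) (fun x hx => (hx j (Nat.lt_succ_self j)).2)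
      hP (hce j hj2) (hcf j hj2) (e (j + 1)) hw₁ hw₁0 hlink hT hS w hw
      (Cfsg.hermForm n F q v (f j)) (Cfsg.hermForm n F q v (e j)) (by rw [← hv']; exact hvv)
    rwa [← hv'] at hres

/-- every isotropic vector is a centre -/
theorem Dat.all_cen (hF : Fintype.card F = q ^ 2) (hn : n = 2 * (l + 2) + 1)
    (D : Dat q n l H e f d U Um a b ε) (c ρ : F) (hc0 : c ≠ 0) (hc : c + c ^ q = 0)
    (hρ : ((2 : F) = 0 ∧ ρ = (b ^ (q + 1)) ^ 2 * a ^ (q + 1) * c ^ 3) ∨
        ((2 : F) ≠ 0 ∧ ρ = 2 * (b ^ (q + 1)) ^ 2 * c ^ 4))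
    (hgen : ∀ A : AddSubgroup F, c ∈ A → (∀ x ∈ A, ρ * x ∈ A) →
        ∀ x : F, x + x ^ q = 0 → x ∈ A)
    (ht : TIn q H (e 0) c) : ∀ v : Fin n → F, Cfsg.hermForm n F q v v = 0 → Cen q H v := by
  have hce := D.cen_e hF c ρ hc0 hc hρ hgen ht
  have hp1 := D.cen_p1 hF (hce 0 (by omega))
  have hW0 := D.cen_W0 hF (hce (l + 1) (by omega)) hp1
  have hcF : Cen q H (f (l + 1)) := by
    have h := hW0 0 0 1 (by
      rw [zero_smul, zero_smul, zero_add, zero_add, one_smul]
      exact D.fr.ff _ _ (by omega) (by omega))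
    rwa [zero_smul, zero_smul, zero_add, zero_add, one_smul] at h
  have hcf := D.cen_f hcF
  intro v hv
  exact D.cen_Wc hF hn hce hcf hW0 (l + 1) 0 (by omega) v (fun k hk => absurd hk (by omega)) hv

end

end Cfsg.Agent.Lib.Helper44.SUReg
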