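import Mathlib
import Cfsg.Agent.Lib.Helper44.SURegAsmB
import Cfsg.Agent.Lib.Helper57.SURegFRAME
import Cfsg.Agent.Lib.Helper68.SURegPAR
import Cfsg.Agent.Lib.Helper75.SURegUDEF
import Cfsg.Agent.Lib.Helper18.SURegWDEF
import Cfsg.Agent.Lib.Helper29.SURegREG

/-!
# S2282 assembly, part C (helper44): `SU_n(q)`, `n = 2m+1 ≥ 5`, is generated by three conjugate
regular unipotent elements
-/

set_option autoImplicit false
set_option linter.unusedSectionVars false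
set_option linter.unusedVariables false

namespace Cfsg.Agent.Lib.Helper44.SUReg

open Matrix Cfsg.Agent.Lib.Helper7 Cfsg.Agent.Lib.Helper18 Cfsg.Agent.Lib.Helper93

section
variable {F : Type*} [Field F] [Fintype F] {q n : ℕ}

/-- the homomorphism from `SU_n(q)` to `GL_n` -/
def suGLn (n : ℕ) (F : Type*) [Field F] (q : ℕ) : ↥(Cfsg.SU n F q) →* GL (Fin n) F :=
  Matrix.SpecialLinearGroup.toGL.comp (Cfsg.SU n F q).subtype

theorem map_suGLn_le (G : Subgroup (Cfsg.SU n F q)) :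
    G.map (suGLn n F q) ≤ Cfsg.GU n F q ⊓ Cfsg.Geo.specialLinear (Fin n) F := by
  rintro _ ⟨A, hA, rfl⟩
  refine Subgroup.mem_inf.mpr ⟨?_, (mem_sl_iff _).mpr ?_⟩
  · exact (mem_GU_iff _).mpr (fun u v => sm_pres A u v)
  · exact A.1.2

theorem MIn_map_suGLn {G : Subgroup (Cfsg.SU n F q)} {A : Cfsg.SU n F q} (hA : A ∈ G) :
    MIn (G.map (suGLn n F q)) (sm A) := ⟨suGLn n F q A, Subgroup.mem_map_of_mem _ hA, rfl⟩

/-- a subgroup of `SU_n(q)`, `n ≥ 4`, containing all unitary transvections is everything -/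
theorem top_of_cen_n (hF : Fintype.card F = q ^ 2) (hn : 4 ≤ n) (G : Subgroup (Cfsg.SU n F q))
    (hall : ∀ v : Fin n → F, Cfsg.hermForm n F q v v = 0 → Cen q (G.map (suGLn n F q)) v) :
    G = ⊤ := by
  rw [eq_top_iff]
  intro A _
  have hmat : sm A ∈ suTM F q n :=
    suTM_eq hF n (by omega) (Or.inl hn) _ (fun u v => sm_pres A u v) A.1.2
  have key : ∀ B ∈ suTM F q n, MIn (G.map (suGLn n F q)) B := by
    intro B hB
    induction hB using Submonoid.closure_induction with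
    | mem B hB =>
      obtain ⟨v, c, hv, hc, rfl⟩ := hB
      exact (hall v hv).2 c hc
    | one => exact MIn.one _
    | mul B C _ _ hB hC => exact hB.mul hC
  obtain ⟨g, hg, hgA⟩ := key _ hmat
  obtain ⟨A', hA', rfl⟩ := hg
  have h1 : A' = A := sm_ext hgA
  rwa [← h1]

/-- the Siegel element conjugating `U` to `U * t_{e_0}(c)` -/
theorem conj3 (hF : Fintype.card F = q ^ 2) {U : Matrix (Fin n) (Fin n) F} (hU : suPres q n U)
    (e0 e1 : Fin n → F) (h00 : Cfsg.hermForm n F q e0 e0 = 0)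
    (h11 : Cfsg.hermForm n F q e1 e1 = 0) (h10 : Cfsg.hermForm n F q e1 e0 = 0)
    (hU0 : U *ᵥ e0 = e0) (hU1 : U *ᵥ e1 = e1 + e0) (s : F) :
    heis q n e0 (s • e1) 0 * U =
      U * (Cfsg.unitaryTransvection n q e0 (s ^ q - s) * heis q n e0 (s • e1) 0) := by
  have h01 : Cfsg.hermForm n F q e0 e1 = 0 := hf_eq_zero_symm hF n _ _ h10
  have hwe : Cfsg.hermForm n F q (s • e1) e0 = 0 := by rw [hf_smul_left, h10, mul_zero]
  have h1 := conj_heis hU e0 (s • (e1 - e0)) (0 : F)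
  have h2 : U *ᵥ (s • (e1 - e0)) = s • e1 := by
    rw [Matrix.mulVec_smul, Matrix.mulVec_sub, hU1, hU0, add_sub_cancel_right]
  rw [hU0, h2] at h1
  rw [← h1, transvection_mul_heis hF n e0 (s • e1) 0 (s ^ q - s) h00 hwe]
  congr 1
  apply Matrix.mulVec_injective
  funext x
  rw [heis_mulVec, heis_mulVec]
  simp only [hf_smul_right, hf_sub_right hF, zero_mul, zero_add, zero_sub]
  module

/-- the main theorem for `n = 2 (l + 2) + 1` -/
theorem su_three_regular (hF : Fintype.card F = q ^ 2) (l : ℕ) (hn : n = 2 * (l + 2) + 1) :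
    ∃ u g h : ↥(Cfsg.SU n F q), (IsNilpotent (sm u - 1) ∧ (sm u - 1) ^ (n - 1) ≠ 0) ∧
      Subgroup.closure ({u, g * u * g⁻¹, h * u * h⁻¹} : Set ↥(Cfsg.SU n F q)) = ⊤ := by
  subst hn
  obtain ⟨e, f, d, fr⟩ := Cfsg.Agent.Lib.Helper57.SUReg.su_frame (F := F) hF (l + 2)
  obtain ⟨a, b, c, ρ, ha, hb, hc0, hc, hρ, hgen⟩ := Cfsg.Agent.Lib.Helper68.SUReg.su_par (F := F) hF
  obtain ⟨U, hUdet, hUpres, hu0, hu1, hu2, hu3, hu4⟩ :=
    Cfsg.Agent.Lib.Helper75.SUReg.su_udef hF fr (by omega) a b hb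
  obtain ⟨Wm, ε, hWdet, hWpres, hε, hWe, hWf, hWd⟩ :=
    Cfsg.Agent.Lib.Helper18.SUReg.su_wdef hF fr
  have hl0 : 0 < l + 2 := by omega
  have hl1 : 1 < l + 2 := by omega
  have h00 : Cfsg.hermForm (2 * (l + 2) + 1) F q (e 0) (e 0) = 0 := fr.ee 0 0 hl0 hl0
  have h11 : Cfsg.hermForm (2 * (l + 2) + 1) F q (e 1) (e 1) = 0 := fr.ee 1 1 hl1 hl1
  have h10 : Cfsg.hermForm (2 * (l + 2) + 1) F q (e 1) (e 0) = 0 := fr.ee 1 0 hl1 hl0
  obtain ⟨l₀, hl₀⟩ := exists_trace_one (F := F) hF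
  obtain ⟨s, hs⟩ : ∃ s : F, s = -(c * l₀) := ⟨_, rfl⟩
  have hsc : s ^ q - s = c := by
    rw [hs, herm_neg_pow hF, mul_pow]
    have hcq : c ^ q = -c := by linear_combination hc
    rw [hcq]
    linear_combination c * hl₀
  have hwe : Cfsg.hermForm (2 * (l + 2) + 1) F q (s • e 1) (e 0) = 0 := by
    rw [hf_smul_left, h10, mul_zero]
  have hww : Cfsg.hermForm (2 * (l + 2) + 1) F q (s • e 1) (s • e 1) = 0 := by
    rw [hf_smul_left, hf_smul_right, h11, mul_zero, mul_zero]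
  have hGpres : suPres q (2 * (l + 2) + 1) (heis q (2 * (l + 2) + 1) (e 0) (s • e 1) 0) :=
    heis0_pres hF (e 0) (s • e 1) h00 hww hwe
  obtain ⟨u, hu⟩ := exists_su hF U hUdet hUpres
  obtain ⟨g, hg⟩ := exists_su hF (heis q (2 * (l + 2) + 1) (e 0) (s • e 1) 0)
    (heis_det hF _ (e 0) (s • e 1) 0 h00 hwe) hGpres
  obtain ⟨w, hw⟩ := exists_su hF Wm hWdet hWpres
  have hU1 : U *ᵥ e 1 = e 1 + e 0 := hu1 0 hl1
  have hconj := conj3 hF hUpres (e 0) (e 1) h00 h11 h10 hu0 hU1 s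
  rw [hsc] at hconj
  refine ⟨u, g, w, ?_, ?_⟩
  · rw [hu]
    exact Cfsg.Agent.Lib.Helper29.SUReg.su_reg hF rfl (by omega) fr U hUpres a b ha hu0 hu1 hu2 hu3
  obtain ⟨S, hS⟩ : ∃ S : Subgroup (Cfsg.SU (2 * (l + 2) + 1) F q),
      S = Subgroup.closure ({u, g * u * g⁻¹, w * u * w⁻¹} : Set ↥(Cfsg.SU (2 * (l + 2) + 1) F q)) :=
    ⟨_, rfl⟩
  rw [← hS]
  have huS : u ∈ S := by rw [hS]; exact Subgroup.subset_closure (by simp)
  have hgS : g * u * g⁻¹ ∈ S := by rw [hS]; exact Subgroup.subset_closure (by simp)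
  have hwS : w * u * w⁻¹ ∈ S := by rw [hS]; exact Subgroup.subset_closure (by simp)
  obtain ⟨H, hH⟩ : ∃ H : Subgroup (GL (Fin (2 * (l + 2) + 1)) F),
      H = S.map (suGLn (2 * (l + 2) + 1) F q) := ⟨_, rfl⟩
  have hHle : H ≤ Cfsg.GU (2 * (l + 2) + 1) F q ⊓
      Cfsg.Geo.specialLinear (Fin (2 * (l + 2) + 1)) F := by
    rw [hH]; exact map_suGLn_le S
  have hMU : MIn H U := by
    have h := MIn_map_suGLn huS
    rwa [hu, ← hH] at h
  obtain ⟨Um, hUmdef⟩ : ∃ Um : Matrix (Fin (2 * (l + 2) + 1)) (Fin (2 * (l + 2) + 1)) F,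
      Um = sm (w * u * w⁻¹) := ⟨_, rfl⟩
  have hMUm : MIn H Um := by
    have h := MIn_map_suGLn hwS
    rwa [← hUmdef, ← hH] at h
  have hUmW : Um * Wm = Wm * U := by
    rw [hUmdef, sm_mul, sm_mul, hu, ← hw, mul_assoc, sm_inv_mul, mul_one]
  -- the transvection
  have hMt : TIn q H (e 0) c := by
    have h := MIn_map_suGLn hgS
    rw [← hH] at h
    have h2 : sm (g * u * g⁻¹) = U * Cfsg.unitaryTransvection (2 * (l + 2) + 1) q (e 0) c := by
      rw [sm_mul, sm_mul, hu, hg, hconj, ← mul_assoc, mul_assoc, ← hg, sm_mul_inv, mul_one]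
    rw [h2] at h
    obtain ⟨Q, hQ, hQU, -⟩ := min_inv hMU
    have h3 := hQ.mul h
    rwa [← mul_assoc, hQU, one_mul] at h3
  have hUmf : ∀ k, k < l + 2 → Um *ᵥ f k = Wm *ᵥ (U *ᵥ e k) := by
    intro k hk
    rw [← hWe k hk, Matrix.mulVec_mulVec, hUmW, ← Matrix.mulVec_mulVec]
  have hUme : ∀ k, k < l + 2 → Um *ᵥ e k = Wm *ᵥ (U *ᵥ f k) := by
    intro k hk
    rw [← hWf k hk, Matrix.mulVec_mulVec, hUmW, ← Matrix.mulVec_mulVec]
  have D : Dat q (2 * (l + 2) + 1) l H e f d U Um a b ε := by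
    refine ⟨fr, hHle, hMU, hMUm, ha, hb, hε, hu0, hu1, hu2, hu3, hu4, ?_, ?_, ?_⟩
    · intro k hk
      rw [hUmf (k + 1) hk, hu1 k hk, Matrix.mulVec_add, hWe (k + 1) hk, hWe k (by omega)]
    · have h3 : U *ᵥ f (l + 1) = f (l + 1) - a ^ q • d + b • e (l + 1) := hu3
      rw [hUme (l + 1) (by omega), h3, Matrix.mulVec_add, Matrix.mulVec_sub, Matrix.mulVec_smul,
        Matrix.mulVec_smul, hWf (l + 1) (by omega), hWe (l + 1) (by omega), hWd]
      module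
    · intro k hk
      have h4 := hu4 k hk
      rw [Matrix.mulVec_add, hUme k (by omega), hUme (k + 1) hk, ← Matrix.mulVec_add,
        ← Matrix.mulVec_add, h4, hWf k (by omega)]
  have hall := D.all_cen hF rfl c ρ hc0 hc hρ hgen hMt
  rw [hH] at hall
  exact top_of_cen_n hF (by omega) S hall

end

end Cfsg.Agent.Lib.Helper44.SUReg
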