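import Mathlib
import Cfsg.Agent.S0751

/-!
# Square-zero selfadjoint maps of a hermitian space (helper44)

`B : V →ₛₗ[σ] V →ₗ[F] F` hermitian nondegenerate over a finite field, `σ ≠ id` an involution.
For `N` with `B (N x) y = B x (N y)` and `N ∘ N = 0`:
* `exists_unit_vector`: if `N ≠ 0` there is `x` with `B x (N x) = 1`;
* `exists_family`: `N x = ∑ i, B (u i) x • u i` for a linearly independent family in `range N`;
* `exists_isometry_conj`: two such maps of the same rank are conjugate by an isometry;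
* `exists_centralizer_det`: for `N ≠ 0` and `σ μ * μ = 1` an isometry commuting with `N` of
  determinant `μ ^ 2`.
-/

set_option autoImplicit false

namespace Cfsg.Agent.Lib.Helper44

open Module

section UnitaryInv

variable {F V : Type*} [Field F] [AddCommGroup V] [Module F V]

theorem sesq_range_isotropic (σ : F →+* F) (B : V →ₛₗ[σ] V →ₗ[F] F) (N : V →ₗ[F] V)
    (hN : ∀ x y, B (N x) y = B x (N y)) (hN2 : ∀ x, N (N x) = 0) :
    ∀ x ∈ LinearMap.range N, ∀ y ∈ LinearMap.range N, B x y = 0 := by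
  rintro _ ⟨a, rfl⟩ _ ⟨b, rfl⟩
  rw [hN, hN2, map_zero]

theorem exists_unit_vector [Finite F] (σ : F →+* F) (hσ : σ ≠ RingHom.id F)
    (hσ2 : ∀ a : F, σ (σ a) = a) (B : V →ₛₗ[σ] V →ₗ[F] F) (hS : B.IsSymm)
    (hB : B.Nondegenerate) (N : V →ₗ[F] V) (hN : ∀ x y, B (N x) y = B x (N y))
    (hN0 : N ≠ 0) : ∃ x, B x (N x) = 1 := by
  have hβS : (B.compl₂ N).IsSymm := by
    refine ⟨fun x y => ?_⟩
    rw [LinearMap.compl₂_apply, LinearMap.compl₂_apply, hS.eq, hN]
  obtain ⟨x, hx⟩ : ∃ x, B x (N x) ≠ 0 := by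
    by_contra hcon
    push Not at hcon
    have h0 := Cfsg.Agent.S0751.polar_sub σ hσ (B.compl₂ N) hβS ⊤ (fun v _ => hcon v)
    apply hN0
    ext y
    rw [LinearMap.zero_apply]
    apply hB.2
    intro x
    exact h0 x trivial y trivial
  have hfix : σ (B x (N x))⁻¹ = (B x (N x))⁻¹ := by
    rw [map_inv₀]
    congr 1
    have := hβS.eq x x
    rwa [LinearMap.compl₂_apply] at this
  obtain ⟨c, hc⟩ := Cfsg.Agent.S0751.norm_surj σ hσ hσ2 (B x (N x))⁻¹ (inv_ne_zero hx) hfix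
  refine ⟨c • x, ?_⟩
  have e : B (c • x) (N (c • x)) = σ c * c * B x (N x) := by
    rw [map_smulₛₗ, LinearMap.smul_apply, LinearMap.map_smul, LinearMap.map_smul, smul_eq_mul,
      smul_eq_mul, mul_assoc]
  rw [e, hc, inv_mul_cancel₀ hx]

theorem exists_family [Finite F] [FiniteDimensional F V] (σ : F →+* F) (hσ : σ ≠ RingHom.id F)
    (hσ2 : ∀ a : F, σ (σ a) = a) (B : V →ₛₗ[σ] V →ₗ[F] F) (hS : B.IsSymm)
    (hB : B.Nondegenerate) (N : V →ₗ[F] V) (hN : ∀ x y, B (N x) y = B x (N y))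
    (hN2 : ∀ x, N (N x) = 0) :
    ∃ (k : ℕ) (u : Fin k → V), LinearIndependent F u ∧ (∀ i, u i ∈ LinearMap.range N) ∧
      ∀ x, N x = ∑ i, B (u i) x • u i := by
  induction' hd : finrank F (LinearMap.range N) using Nat.strong_induction_on with d ih
    generalizing N
  by_cases hN0 : N = 0
  · refine ⟨0, Fin.elim0, linearIndependent_empty_type, fun i => i.elim0, fun x => ?_⟩
    simp [hN0]
  obtain ⟨x₁, hx₁⟩ := exists_unit_vector σ hσ hσ2 B hS hB N hN hN0
  set u₀ := N x₁ with hu₀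
  have hu₀x : B u₀ x₁ = 1 := by
    rw [← hS.eq, hx₁, map_one]
  have hu₀u₀ : B u₀ u₀ = 0 := by rw [hu₀, hN, hN2, map_zero]
  have hNu₀ : N u₀ = 0 := hN2 x₁
  let N' : V →ₗ[F] V := N - (B u₀).smulRight u₀
  have hN'app : ∀ x, N' x = N x - B u₀ x • u₀ := fun x => rfl
  have hN'x : N' x₁ = 0 := by rw [hN'app, hu₀x, one_smul, sub_self]
  have hN' : ∀ x y, B (N' x) y = B x (N' y) := by
    intro x y
    rw [hN'app, hN'app, map_sub, map_sub, LinearMap.sub_apply, map_smulₛₗ, LinearMap.smul_apply,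
      map_smul, hS.eq, hN, smul_eq_mul, smul_eq_mul, mul_comm]
  have hN'2 : ∀ x, N' (N' x) = 0 := by
    intro x
    have h1 : B u₀ (N x) = 0 := by rw [← hN, hNu₀, map_zero, LinearMap.zero_apply]
    rw [hN'app, hN'app, map_sub, map_sub, map_smul, map_smul, hN2, hNu₀, h1, hu₀u₀]
    simp
  have hle : LinearMap.range N' ≤ LinearMap.range N := by
    rintro _ ⟨x, rfl⟩
    rw [hN'app]
    exact Submodule.sub_mem _ ⟨x, rfl⟩ (Submodule.smul_mem _ _ ⟨x₁, rfl⟩)
  have hnot : u₀ ∉ LinearMap.range N' := by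
    rintro ⟨y, hy⟩
    have h1 : B x₁ (N' y) = 0 := by rw [← hN', hN'x, map_zero, LinearMap.zero_apply]
    rw [hy, hx₁] at h1
    exact one_ne_zero h1
  have hlt : LinearMap.range N' < LinearMap.range N :=
    lt_of_le_of_ne hle (fun h => hnot (h ▸ ⟨x₁, rfl⟩))
  obtain ⟨k, u, hli, hmem, hsum⟩ := ih _ (hd ▸ Submodule.finrank_lt_finrank_of_lt hlt) N' hN' hN'2 rfl
  refine ⟨k + 1, Fin.cons u₀ u, ?_, ?_, ?_⟩
  · rw [linearIndependent_finCons]
    refine ⟨hli, fun h => hnot ?_⟩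
    exact (Submodule.span_le.2 (by rintro _ ⟨i, rfl⟩; exact hmem i)) h
  · intro i
    refine Fin.cases ?_ (fun j => ?_) i
    · exact ⟨x₁, rfl⟩
    · rw [Fin.cons_succ]
      exact hle (hmem j)
  · intro x
    rw [Fin.sum_univ_succ]
    simp only [Fin.cons_zero, Fin.cons_succ]
    rw [← hsum, hN'app]
    abel

theorem exists_family' [Finite F] [FiniteDimensional F V] (σ : F →+* F) (hσ : σ ≠ RingHom.id F)
    (hσ2 : ∀ a : F, σ (σ a) = a) (B : V →ₛₗ[σ] V →ₗ[F] F) (hS : B.IsSymm)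
    (hB : B.Nondegenerate) (N : V →ₗ[F] V) (hN : ∀ x y, B (N x) y = B x (N y))
    (hN2 : ∀ x, N (N x) = 0) (l : ℕ) (hl : finrank F (LinearMap.range N) = l) :
    ∃ u : Fin l → V, LinearIndependent F u ∧ (∀ i, u i ∈ LinearMap.range N) ∧
      ∀ x, N x = ∑ i, B (u i) x • u i := by
  obtain ⟨k, u, hli, hmem, hsum⟩ := exists_family σ hσ hσ2 B hS hB N hN hN2
  have hspan : Submodule.span F (Set.range u) = LinearMap.range N := by
    apply le_antisymm
    · exact Submodule.span_le.2 (by rintro _ ⟨i, rfl⟩; exact hmem i)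
    · rintro _ ⟨x, rfl⟩
      rw [hsum]
      exact Submodule.sum_mem _ (fun i _ => Submodule.smul_mem _ _
        (Submodule.subset_span ⟨i, rfl⟩))
  have hk : k = l := by
    rw [← hl, ← hspan, finrank_span_eq_card hli, Fintype.card_fin]
  subst hk
  exact ⟨u, hli, hmem, hsum⟩

theorem exists_isometry_conj [Finite F] [FiniteDimensional F V] (σ : F →+* F)
    (hσ : σ ≠ RingHom.id F)
    (hσ2 : ∀ a : F, σ (σ a) = a) (B : V →ₛₗ[σ] V →ₗ[F] F) (hS : B.IsSymm)
    (hB : B.Nondegenerate) (N N' : V →ₗ[F] V) (hN : ∀ x y, B (N x) y = B x (N y))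
    (hN2 : ∀ x, N (N x) = 0) (hN' : ∀ x y, B (N' x) y = B x (N' y))
    (hN'2 : ∀ x, N' (N' x) = 0)
    (hrank : finrank F (LinearMap.range N) = finrank F (LinearMap.range N')) :
    ∃ g : V ≃ₗ[F] V, (∀ u v : V, B (g u) (g v) = B u v) ∧ ∀ x, g (N x) = N' (g x) := by
  obtain ⟨u, hli, hmem, hsum⟩ :=
    exists_family' σ hσ hσ2 B hS hB N hN hN2 _ rfl
  obtain ⟨u', hli', hmem', hsum'⟩ :=
    exists_family' σ hσ hσ2 B hS hB N' hN' hN'2 _ hrank.symm
  let φ : Submodule.span F (Set.range u) ≃ₗ[F] Submodule.span F (Set.range u') :=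
    (Basis.span hli).equiv (Basis.span hli') (Equiv.refl _)
  have hX : Submodule.span F (Set.range u) ≤ LinearMap.range N :=
    Submodule.span_le.2 (by rintro _ ⟨i, rfl⟩; exact hmem i)
  have hY : Submodule.span F (Set.range u') ≤ LinearMap.range N' :=
    Submodule.span_le.2 (by rintro _ ⟨i, rfl⟩; exact hmem' i)
  have hφ : ∀ x x' : Submodule.span F (Set.range u),
      B (φ x : V) (φ x' : V) = B (x : V) (x' : V) := by
    intro x x'
    rw [sesq_range_isotropic σ B N hN hN2 _ (hX x.2) _ (hX x'.2),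
      sesq_range_isotropic σ B N' hN' hN'2 _ (hY (φ x).2) _ (hY (φ x').2)]
  obtain ⟨g, hg, hgφ⟩ := Cfsg.Agent.S0751.result σ hσ hσ2 B hS hB _ _ φ hφ
  have hgu : ∀ i, g (u i) = u' i := by
    intro i
    have e1 : ((Basis.span hli i : Submodule.span F (Set.range u)) : V) = u i := by
      rw [Basis.span_apply]
    have e2 : ((Basis.span hli' i : Submodule.span F (Set.range u')) : V) = u' i := by
      rw [Basis.span_apply]
    have h1 := hgφ (Basis.span hli i)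
    rw [e1] at h1
    rw [h1, Basis.equiv_apply, Equiv.refl_apply, e2]
  refine ⟨g, hg, fun x => ?_⟩
  rw [hsum, hsum', map_sum]
  refine Finset.sum_congr rfl (fun i _ => ?_)
  rw [map_smul, hgu, ← hgu i, hg, hgu]

theorem exists_centralizer_det [Finite F] [FiniteDimensional F V] (σ : F →+* F)
    (hσ : σ ≠ RingHom.id F)
    (hσ2 : ∀ a : F, σ (σ a) = a) (B : V →ₛₗ[σ] V →ₗ[F] F) (hS : B.IsSymm)
    (hB : B.Nondegenerate) (N : V →ₗ[F] V) (hN : ∀ x y, B (N x) y = B x (N y))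
    (hN2 : ∀ x, N (N x) = 0) (hN0 : N ≠ 0) (μ : F) (hμ : σ μ * μ = 1) :
    ∃ c : V →ₗ[F] V, (∀ u v : V, B (c u) (c v) = B u v) ∧ (∀ x, c (N x) = N (c x)) ∧
      LinearMap.det c = μ ^ 2 := by
  obtain ⟨x₁, hx₁⟩ := exists_unit_vector σ hσ hσ2 B hS hB N hN hN0
  obtain ⟨u₀, hu₀⟩ : ∃ u₀, u₀ = N x₁ := ⟨_, rfl⟩
  rw [← hu₀] at hx₁
  have hu₀x : B u₀ x₁ = 1 := by
    rw [← hS.eq, hx₁, map_one]
  have hu₀u₀ : B u₀ u₀ = 0 := by rw [hu₀, hN, hN2, map_zero]
  have hNu₀ : N u₀ = 0 := by rw [hu₀]; exact hN2 x₁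
  have hfix : σ (-(B x₁ x₁)) = -(B x₁ x₁) := by rw [map_neg, hS.eq]
  obtain ⟨κ, hκ⟩ := Cfsg.Agent.S0751.trace_surj σ hσ hσ2 _ hfix
  obtain ⟨w, hw⟩ : ∃ w, w = x₁ + κ • u₀ := ⟨_, rfl⟩
  have hNw : N w = u₀ := by rw [hw, map_add, map_smul, hNu₀, smul_zero, add_zero, hu₀]
  have hu₀w : B u₀ w = 1 := by
    rw [hw, map_add, map_smul, hu₀x, hu₀u₀, smul_zero, add_zero]
  have hwu₀ : B w u₀ = 1 := by rw [← hS.eq, hu₀w, map_one]
  have hww : B w w = 0 := by
    have e : B w w = B x₁ x₁ + (κ + σ κ) := by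
      rw [hw]
      simp only [map_add, map_smul, map_smulₛₗ, LinearMap.add_apply, LinearMap.smul_apply,
        smul_eq_mul, hu₀x, hx₁, hu₀u₀]
      ring
    rw [e, hκ, add_neg_cancel]
  let c₁ : V →ₗ[F] V := LinearMap.transvection ((μ - 1) • B w) u₀
  let c₂ : V →ₗ[F] V := LinearMap.transvection ((μ - 1) • B u₀) w
  have hc : ∀ x, (c₁ ∘ₗ c₂) x = x + (μ - 1) • (B w x • u₀ + B u₀ x • w) := by
    intro x
    simp only [c₁, c₂, LinearMap.comp_apply, LinearMap.transvection.apply, LinearMap.smul_apply,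
      map_add, map_smul, smul_eq_mul, hww, mul_zero, add_zero, smul_add, smul_smul]
    module
  refine ⟨c₁ ∘ₗ c₂, ?_, ?_, ?_⟩
  · intro x y
    rw [hc, hc]
    have e1 : σ (B w x) = B x w := hS.eq w x
    have e2 : σ (B u₀ x) = B x u₀ := hS.eq u₀ x
    simp only [map_add, map_smul, map_smulₛₗ, LinearMap.add_apply, LinearMap.smul_apply,
      smul_eq_mul, hu₀u₀, hww, hu₀w, hwu₀, map_sub, map_one, e1, e2]
    linear_combination (B w y * B x u₀ + B u₀ y * B x w) * hμ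
  · intro x
    have e1 : B w (N x) = B u₀ x := by rw [← hN, hNw]
    have e2 : B u₀ (N x) = 0 := by rw [← hN, hNu₀, map_zero, LinearMap.zero_apply]
    rw [hc, hc, e1, e2, map_add, LinearMap.map_smul, map_add, LinearMap.map_smul,
      LinearMap.map_smul, hNu₀, hNw, smul_zero, zero_add, zero_smul, add_zero]
  · rw [LinearMap.det_comp, LinearMap.transvection.det, LinearMap.transvection.det,
      LinearMap.smul_apply, LinearMap.smul_apply, hwu₀, hu₀w]
    simp only [smul_eq_mul, mul_one]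
    ring

end UnitaryInv

end Cfsg.Agent.Lib.Helper44
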